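import Mathlib
import Cfsg.Agent.Lib.Helper69.ClassSize

/-!
# Elements of the smallest class sizes (Mann, Isaacs)

`commutator_mem_center`: if `A` is an abelian normal subgroup and `x` lies in a class of the smallest
non-central size, then `[A, x] ≤ Z(G)`.
`upperCentralSeries_three_eq_top`: if `C_G(A) = A` and `[A, M] ≤ Z(G)` then `M` has class at most 3.
-/

set_option autoImplicit false

namespace Cfsg.Agent.Lib.Helper69

open Subgroup

variable {G : Type*} [Group G]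

theorem centralizer_singleton_subtype (N : Subgroup G) (x : G) (hx : x ∈ N) :
    centralizer ({(⟨x, hx⟩ : N)} : Set N) = (centralizer ({x} : Set G)).subgroupOf N := by
  ext g
  rw [mem_subgroupOf, mem_cent_singleton, mem_cent_singleton, Subtype.ext_iff]
  rfl

/-- relative orbit-stabilizer for conjugation -/
theorem relIndex_centralizer_eq_ncard (N : Subgroup G) (x : G) (hx : x ∈ N) :
    (centralizer ({x} : Set G)).relIndex N =
      (Set.range (fun g : N => g * (⟨x, hx⟩ : N) * g⁻¹)).ncard := by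
  rw [relIndex, ← centralizer_singleton_subtype N x hx, index_centralizer_eq_ncard_range]

theorem commutator_mem_center [Finite G] (A : Subgroup G) [A.Normal]
    (hA : ∀ a ∈ A, ∀ b ∈ A, a * b = b * a) (m : ℕ)
    (hmin : ∀ x : G, 1 < (centralizer ({x} : Set G)).index → m ≤ (centralizer ({x} : Set G)).index)
    (x : G) (hx : (centralizer ({x} : Set G)).index = m) (a₀ : G) (ha₀ : a₀ ∈ A) :
    a₀ * x * a₀⁻¹ * x⁻¹ ∈ center G := by
  by_contra hv
  set v := a₀ * x * a₀⁻¹ * x⁻¹ with hvdef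
  have hAn : ∀ a ∈ A, ∀ g : G, g * a * g⁻¹ ∈ A := fun a ha g => ‹A.Normal›.conj_mem a ha g
  -- the subgroup `N`
  set N : Subgroup G := (centralizer ({(x : G ⧸ A)} : Set (G ⧸ A))).comap (QuotientGroup.mk' A) with hN
  have hmemN : ∀ g : G, g ∈ N ↔ g * x * g⁻¹ * x⁻¹ ∈ A := by
    intro g
    rw [hN, mem_comap, mem_cent_singleton, QuotientGroup.mk'_apply, ← QuotientGroup.mk_mul,
      ← QuotientGroup.mk_mul, eq_comm, QuotientGroup.eq]
    constructor
    · intro h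
      have := hAn _ h (x * g)
      have e : x * g * ((x * g)⁻¹ * (g * x)) * (x * g)⁻¹ = g * x * g⁻¹ * x⁻¹ := by group
      rwa [e] at this
    · intro h
      have := hAn _ h (x * g)⁻¹
      have e : (x * g)⁻¹ * (g * x * g⁻¹ * x⁻¹) * (x * g)⁻¹⁻¹ = (x * g)⁻¹ * (g * x) := by group
      rwa [e] at this
  have hcomm_mem : ∀ a ∈ A, a * x * a⁻¹ * x⁻¹ ∈ A := by
    intro a ha
    have : a * x * a⁻¹ * x⁻¹ = a * (x * a⁻¹ * x⁻¹) := by group
    rw [this]
    exact A.mul_mem ha (hAn _ (A.inv_mem ha) x)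
  have hAN : A ≤ N := fun a ha => (hmemN a).2 (hcomm_mem a ha)
  have hxN : x ∈ N := by
    rw [hmemN]
    have : x * x * x⁻¹ * x⁻¹ = 1 := by group
    rw [this]; exact A.one_mem
  have hvA : v ∈ A := hcomm_mem a₀ ha₀
  have hvN : v ∈ N := hAN hvA
  have hCN : centralizer ({x} : Set G) ≤ N := by
    intro g hg
    rw [mem_cent_singleton] at hg
    rw [hmemN, hg]
    have : x * g * g⁻¹ * x⁻¹ = 1 := by group
    rw [this]; exact A.one_mem
  have hv1 : v ≠ 1 := fun h => hv (h ▸ (center G).one_mem)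
  -- orbits
  have h1 := relIndex_centralizer_eq_ncard N x hxN
  have h2 := relIndex_centralizer_eq_ncard N v hvN
  set Ox := Set.range (fun g : N => g * (⟨x, hxN⟩ : N) * g⁻¹) with hOx
  set Ov := Set.range (fun g : N => g * (⟨v, hvN⟩ : N) * g⁻¹) with hOv
  have hlt : Ov.ncard < Ox.ncard := by
    have h1O : (1 : N) ∉ Ov := by
      rintro ⟨g, hg⟩
      apply hv1
      have : (⟨v, hvN⟩ : N) = 1 := by
        have e : (⟨v, hvN⟩ : N) = g⁻¹ * (g * (⟨v, hvN⟩ : N) * g⁻¹) * g := by group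
        rw [e]
        simp only at hg
        rw [hg]; group
      exact congrArg Subtype.val this
    have hsub : (fun w : N => w * (⟨x, hxN⟩ : N)) '' (insert 1 Ov) ⊆ Ox := by
      rintro _ ⟨w, hw, rfl⟩
      rcases hw with rfl | ⟨g, rfl⟩
      · exact ⟨1, by simp⟩
      · obtain ⟨g, hg⟩ := g
        set a₁ := g * a₀ * g⁻¹ with ha₁
        have ha₁A : a₁ ∈ A := hAn a₀ ha₀ g
        set b := g * x * g⁻¹ * x⁻¹ with hb
        have hbA : b ∈ A := (hmemN g).1 hg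
        refine ⟨⟨a₁, hAN ha₁A⟩, ?_⟩
        apply Subtype.ext
        show a₁ * x * a₁⁻¹ = g * v * g⁻¹ * x
        have e1 : g * v * g⁻¹ = a₁ * (b * x) * a₁⁻¹ * (b * x)⁻¹ := by
          rw [hvdef, ha₁, hb]; group
        have e2 : a₁ * (b * x) * a₁⁻¹ * (b * x)⁻¹ = (a₁ * b) * (x * a₁⁻¹ * x⁻¹) * b⁻¹ := by group
        have e3 : x * a₁⁻¹ * x⁻¹ ∈ A := hAn _ (A.inv_mem ha₁A) x
        rw [e1, e2, hA a₁ ha₁A b hbA, mul_assoc b, mul_assoc b,
          hA _ (A.mul_mem ha₁A e3) _ (A.inv_mem hbA)]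
        group
    have hinj : Function.Injective (fun w : N => w * (⟨x, hxN⟩ : N)) := mul_left_injective _
    calc Ov.ncard < (insert 1 Ov).ncard := by
          rw [Set.ncard_insert_of_notMem h1O (Set.toFinite _)]; exact Nat.lt_succ_self _
      _ = ((fun w : N => w * (⟨x, hxN⟩ : N)) '' (insert 1 Ov)).ncard :=
          (Set.ncard_image_of_injective _ hinj).symm
      _ ≤ Ox.ncard := Set.ncard_le_ncard hsub (Set.toFinite _)
  rw [← h1, ← h2] at hlt
  have h3 : (centralizer ({x} : Set G)).relIndex N * N.index = m := by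
    rw [relIndex_mul_index hCN, hx]
  have h4 : (centralizer ({v} : Set G) ⊓ N).relIndex N * N.index = (centralizer ({v} : Set G) ⊓ N).index :=
    relIndex_mul_index inf_le_right
  rw [inf_relIndex_right] at h4
  have h5 : (centralizer ({v} : Set G)).index ≤ (centralizer ({v} : Set G) ⊓ N).index :=
    Nat.le_of_dvd (Nat.pos_of_ne_zero index_ne_zero_of_finite) (index_dvd_of_le inf_le_left)
  have h6 : 1 < (centralizer ({v} : Set G)).index := by
    have h7 : (centralizer ({v} : Set G)).index ≠ 1 := fun h => hv ((index_centralizer_eq_one_iff v).1 h)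
    have h8 : (centralizer ({v} : Set G)).index ≠ 0 := index_ne_zero_of_finite
    omega
  have h9 := hmin v h6
  have h10 : 0 < N.index := Nat.pos_of_ne_zero index_ne_zero_of_finite
  have h11 : (centralizer ({v} : Set G)).relIndex N * N.index <
      (centralizer ({x} : Set G)).relIndex N * N.index := Nat.mul_lt_mul_of_pos_right hlt h10
  omega

/-- the set of `y` with `[A, y] ≤ Z(G)` is closed under the group operations -/
theorem commutator_mem_center_of_mem_closure (A : Subgroup G) (S : Set G)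
    (hS : ∀ y ∈ S, ∀ a ∈ A, a * y * a⁻¹ * y⁻¹ ∈ center G) :
    ∀ y ∈ closure S, ∀ a ∈ A, a * y * a⁻¹ * y⁻¹ ∈ center G := by
  intro y hy
  induction hy using closure_induction with
  | mem x hx => exact hS x hx
  | one =>
    intro a _
    have : a * 1 * a⁻¹ * (1 : G)⁻¹ = 1 := by group
    rw [this]; exact (center G).one_mem
  | mul y₁ y₂ _ _ h₁ h₂ =>
    intro a ha
    have e : a * (y₁ * y₂) * a⁻¹ * (y₁ * y₂)⁻¹ =
        (a * y₁ * a⁻¹ * y₁⁻¹) * (y₁ * (a * y₂ * a⁻¹ * y₂⁻¹) * y₁⁻¹) := by group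
    rw [e]
    exact (center G).mul_mem (h₁ a ha)
      ((inferInstance : (center G).Normal).conj_mem _ (h₂ a ha) y₁)
  | inv y _ h =>
    intro a ha
    have e : a * y⁻¹ * a⁻¹ * y⁻¹⁻¹ = y⁻¹ * (a * y * a⁻¹ * y⁻¹)⁻¹ * y⁻¹⁻¹ := by group
    rw [e]
    exact (inferInstance : (center G).Normal).conj_mem _ ((center G).inv_mem (h a ha)) y⁻¹

theorem upperCentralSeries_three_eq_top (A M : Subgroup G)
    (hCA : centralizer (A : Set G) = A)
    (h : ∀ y ∈ M, ∀ a ∈ A, a * y * a⁻¹ * y⁻¹ ∈ center G) :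
    Subgroup.upperCentralSeries M 3 = ⊤ := by
  have key : ∀ y ∈ M, ∀ a ∈ A, ∃ z ∈ center G, y * a * y⁻¹ = z * a := by
    intro y hy a ha
    exact ⟨(a * y * a⁻¹ * y⁻¹)⁻¹, (center G).inv_mem (h y hy a ha), by group⟩
  have h12 : ∀ y₁ ∈ M, ∀ y₂ ∈ M, ∀ a ∈ A,
      (y₁ * y₂) * a * (y₁ * y₂)⁻¹ = (y₂ * y₁) * a * (y₂ * y₁)⁻¹ := by
    intro y₁ h₁ y₂ h₂ a ha
    obtain ⟨z₁, hz₁, e₁⟩ := key y₁ h₁ a ha
    obtain ⟨z₂, hz₂, e₂⟩ := key y₂ h₂ a ha
    rw [mem_center_iff] at hz₁ hz₂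
    calc (y₁ * y₂) * a * (y₁ * y₂)⁻¹ = y₁ * (y₂ * a * y₂⁻¹) * y₁⁻¹ := by group
      _ = y₁ * (z₂ * a) * y₁⁻¹ := by rw [e₂]
      _ = (y₁ * z₂) * a * y₁⁻¹ := by group
      _ = z₂ * (y₁ * a * y₁⁻¹) := by rw [hz₂ y₁]; group
      _ = z₂ * (z₁ * a) := by rw [e₁]
      _ = (z₂ * z₁) * a := by group
      _ = (z₁ * z₂) * a := by rw [hz₁ z₂]
      _ = z₁ * (y₂ * a * y₂⁻¹) := by rw [e₂]; group
      _ = (y₂ * z₁) * a * y₂⁻¹ := by rw [hz₁ y₂]; group
      _ = y₂ * (z₁ * a) * y₂⁻¹ := by group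
      _ = y₂ * (y₁ * a * y₁⁻¹) * y₂⁻¹ := by rw [e₁]
      _ = _ := by group
  have hMA : ∀ y₁ ∈ M, ∀ y₂ ∈ M, y₁ * y₂ * y₁⁻¹ * y₂⁻¹ ∈ A := by
    intro y₁ h₁ y₂ h₂
    rw [← hCA, mem_centralizer_iff]
    intro a ha
    have := h12 y₂⁻¹ (M.inv_mem h₂) y₁⁻¹ (M.inv_mem h₁) a ha
    calc a * (y₁ * y₂ * y₁⁻¹ * y₂⁻¹)
        = (y₁ * y₂) * ((y₂⁻¹ * y₁⁻¹) * a * (y₂⁻¹ * y₁⁻¹)⁻¹) * (y₁⁻¹ * y₂⁻¹) := by group
      _ = (y₁ * y₂) * ((y₁⁻¹ * y₂⁻¹) * a * (y₁⁻¹ * y₂⁻¹)⁻¹) * (y₁⁻¹ * y₂⁻¹) := by rw [this]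
      _ = _ := by group
  have c1 : ∀ u : M, (u : G) ∈ center G → u ∈ Subgroup.upperCentralSeries M 1 := by
    intro u hu
    rw [Subgroup.upperCentralSeries_one, mem_center_iff]
    intro g
    exact Subtype.ext ((mem_center_iff.1 hu) g)
  have c2 : ∀ u : M, (u : G) ∈ A → u ∈ Subgroup.upperCentralSeries M 2 := by
    intro u hu
    rw [Subgroup.mem_upperCentralSeries_succ_iff]
    intro y
    apply c1
    exact h y y.2 u hu
  rw [eq_top_iff]
  intro u _
  rw [Subgroup.mem_upperCentralSeries_succ_iff]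
  intro y
  apply c2
  exact hMA u u.2 y y.2

theorem upperCentralSeries_three_eq_top' (A : Subgroup G)
    (hCA : centralizer (A : Set G) = A)
    (h : ∀ y : G, ∀ a ∈ A, a * y * a⁻¹ * y⁻¹ ∈ center G) :
    Subgroup.upperCentralSeries G 3 = ⊤ := by
  have h1 := upperCentralSeries_three_eq_top A ⊤ hCA (fun y _ => h y)
  have h2 := Subgroup.comap_upperCentralSeries (topEquiv : (⊤ : Subgroup G) ≃* G) 3
  rw [h1] at h2
  rw [eq_top_iff]
  intro u _
  have h3 : (⟨u, mem_top u⟩ : (⊤ : Subgroup G)) ∈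
      (Subgroup.upperCentralSeries G 3).comap (topEquiv : (⊤ : Subgroup G) ≃* G) := by
    rw [h2]; exact mem_top _
  exact h3

end Cfsg.Agent.Lib.Helper69
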