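import Mathlib
import Cfsg.Agent.Lib.Helper69.SylowCent

/-!
# Elements normalizing a cyclic Sylow subgroup
-/

set_option autoImplicit false

namespace Cfsg.Agent.Lib.Helper69

open Subgroup

variable {G : Type*} [Group G]

/-- `N(P)/C(P)` has order prime to `p` when `P` is an abelian Sylow subgroup -/
theorem pow_index_mem_centralizer [Finite G] (P : Subgroup G) (hab : P ≤ centralizer (P : Set G))
    (y : G) (hy : y ∈ normalizer (P : Set G)) : y ^ P.index ∈ centralizer (P : Set G) := by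
  have hn : ((centralizer (P : Set G)).subgroupOf (normalizer (P : Set G))).Normal := by
    rw [← normalizerMonoidHom_ker]; infer_instance
  have h1 := pow_index_mem ((centralizer (P : Set G)).subgroupOf (normalizer (P : Set G))) ⟨y, hy⟩
  rw [mem_subgroupOf] at h1
  have h2 : ((centralizer (P : Set G)).subgroupOf (normalizer (P : Set G))).index ∣ P.index :=
    (relIndex_dvd_of_le_left (normalizer (P : Set G)) hab).trans (relIndex_dvd_index_of_le le_normalizer)
  obtain ⟨c, hc⟩ := h2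
  rw [hc, pow_mul]
  exact pow_mem h1 c

theorem mem_centralizer_of_cyclic_sylow [Finite G] {p : ℕ} [Fact p.Prime] (P : Sylow p G)
    (hcyc : IsCyclic (P : Subgroup G)) (y : G) (hy : y ∈ normalizer ((P : Subgroup G) : Set G))
    (h : (∃ z ∈ P, z ≠ 1 ∧ y * z * y⁻¹ = z) ∨
      (∃ P1 : Subgroup G, ¬ (P : Subgroup G) ≤ P1 ∧ ∀ z ∈ P, z⁻¹ * (y * z * y⁻¹) ∈ P1)) :
    y ∈ centralizer ((P : Subgroup G) : Set G) := by
  have hp : p.Prime := Fact.out
  obtain ⟨⟨g, hg⟩, hgen⟩ := hcyc.exists_generator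
  have hgen' : ∀ z ∈ P, ∃ i : ℤ, g ^ i = z := by
    intro z hz
    obtain ⟨i, hi⟩ := mem_zpowers_iff.1 (hgen ⟨z, hz⟩)
    exact ⟨i, by simpa using congrArg Subtype.val hi⟩
  obtain ⟨n, hn⟩ := P.2.exists_card_eq
  have hpow : ∀ z ∈ P, z ^ (p ^ n) = 1 := by
    intro z hz
    have : (⟨z, hz⟩ : (P : Subgroup G)) ^ (Nat.card (P : Subgroup G)) = 1 := pow_card_eq_one'
    rw [hn] at this
    simpa using congrArg Subtype.val this
  have hab : (P : Subgroup G) ≤ centralizer ((P : Subgroup G) : Set G) := by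
    intro a ha
    rw [mem_centralizer_iff]
    intro b hb
    obtain ⟨i, rfl⟩ := hgen' a ha
    obtain ⟨j, rfl⟩ := hgen' b hb
    rw [← zpow_add, ← zpow_add, add_comm]
  have hyg : y * g * y⁻¹ ∈ P := (mem_normalizer_iff.1 hy g).1 hg
  obtain ⟨k, hk⟩ := hgen' _ hyg
  have hconj : ∀ z ∈ P, y * z * y⁻¹ = z ^ k := by
    intro z hz
    obtain ⟨i, rfl⟩ := hgen' z hz
    rw [← conj_zpow, ← hk, ← zpow_mul, ← zpow_mul, mul_comm]
  -- `p ∣ k - 1`
  have hdvd : (p : ℤ) ∣ k - 1 := by
    by_contra hnd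
    have hcop : IsCoprime (k - 1) ((p : ℤ) ^ n) := by
      apply IsCoprime.pow_right
      rw [isCoprime_comm]
      exact (Prime.coprime_iff_not_dvd (Nat.prime_iff_prime_int.1 hp)).2 hnd
    obtain ⟨a, b, hab'⟩ := hcop
    have key : ∀ z ∈ P, z = (z ^ (k - 1)) ^ a := by
      intro z hz
      have h1 : z ^ ((p : ℤ) ^ n) = 1 := by
        have := hpow z hz
        rw [← zpow_natCast] at this
        simpa using this
      calc z = z ^ (a * (k - 1) + b * (p : ℤ) ^ n) := by rw [hab', zpow_one]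
        _ = (z ^ (k - 1)) ^ a * (z ^ ((p : ℤ) ^ n)) ^ b := by
            rw [zpow_add, ← zpow_mul, ← zpow_mul, mul_comm a, mul_comm b]
        _ = _ := by rw [h1, one_zpow, mul_one]
    rcases h with ⟨z, hz, hz1, hzy⟩ | ⟨P1, hP1, hall⟩
    · apply hz1
      rw [hconj z hz] at hzy
      have : z ^ (k - 1) = 1 := by rw [zpow_sub, hzy, zpow_one, mul_inv_cancel]
      rw [key z hz, this, one_zpow]
    · apply hP1
      intro z hz
      have h2 := hall z hz
      rw [hconj z hz] at h2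
      have : z ^ (k - 1) = z⁻¹ * z ^ k := by
        rw [sub_eq_neg_add, zpow_add, zpow_neg, zpow_one]
      rw [key z hz, this]
      exact zpow_mem h2 a
  -- powers of `y`
  have hiter : ∀ j : ℕ, y ^ j * g * (y ^ j)⁻¹ = g ^ (k ^ j) := by
    intro j
    induction j with
    | zero => simp
    | succ j ih =>
      calc y ^ (j + 1) * g * (y ^ (j + 1))⁻¹ = y * (y ^ j * g * (y ^ j)⁻¹) * y⁻¹ := by
            rw [pow_succ']; group
        _ = y * g ^ (k ^ j) * y⁻¹ := by rw [ih]
        _ = (g ^ k) ^ (k ^ j) := by rw [← conj_zpow, hk]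
        _ = g ^ (k ^ (j + 1)) := by rw [← zpow_mul, pow_succ']
  have h3 : ((p : ℤ) ^ n) ∣ k ^ p ^ n - 1 := by
    have := dvd_sub_pow_of_dvd_sub (R := ℤ) (p := p) (a := k) (b := 1) hdvd n
    rw [one_pow] at this
    exact (pow_dvd_pow _ (Nat.le_succ n)).trans this
  have h4 : y ^ (p ^ n) ∈ centralizer ((P : Subgroup G) : Set G) := by
    obtain ⟨t, ht⟩ := h3
    have h5 : g ^ (k ^ p ^ n) = g := by
      have e : k ^ p ^ n = 1 + (p : ℤ) ^ n * t := by linarith
      have h1 : g ^ ((p : ℤ) ^ n) = 1 := by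
        have := hpow g hg
        rw [← zpow_natCast] at this
        simpa using this
      rw [e, zpow_add, zpow_one, zpow_mul, h1, one_zpow, mul_one]
    have h6 := hiter (p ^ n)
    rw [h5] at h6
    have h7 : Commute (y ^ (p ^ n)) g := by
      have : y ^ (p ^ n) * g = g * y ^ (p ^ n) := by
        calc y ^ (p ^ n) * g = (y ^ (p ^ n) * g * (y ^ (p ^ n))⁻¹) * y ^ (p ^ n) := by group
          _ = _ := by rw [h6]
      exact this
    rw [mem_centralizer_iff]
    intro z hz
    obtain ⟨i, rfl⟩ := hgen' z hz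
    exact ((h7.zpow_right i).eq).symm
  have h8 := pow_index_mem_centralizer (P : Subgroup G) hab y hy
  have hcop2 : (p ^ n).Coprime (P : Subgroup G).index :=
    Nat.Coprime.pow_left _ ((Nat.Prime.coprime_iff_not_dvd hp).2 P.not_dvd_index)
  have h9 : y ^ ((p ^ n).gcd (P : Subgroup G).index : ℤ) ∈ centralizer ((P : Subgroup G) : Set G) := by
    rw [Nat.gcd_eq_gcd_ab, zpow_add, zpow_mul, zpow_mul, zpow_natCast, zpow_natCast]
    exact mul_mem (zpow_mem h4 _) (zpow_mem h8 _)
  rw [hcop2] at h9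
  simpa using h9

end Cfsg.Agent.Lib.Helper69
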