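import Mathlib
import Cfsg.Agent.Lib.Helper69.SylowCent

/-!
# If `p` divides no class size of a `p'`-element, the Sylow `p`-subgroup is a direct factor
-/

set_option autoImplicit false

namespace Cfsg.Agent.Lib.Helper69

open Subgroup

variable {G : Type*} [Group G]

theorem sylow_direct_factor [Finite G] {p : ℕ} [Fact p.Prime]
    (h : ∀ t : G, ¬ p ∣ orderOf t → ¬ p ∣ (centralizer ({t} : Set G)).index) (P : Sylow p G) :
    (P : Subgroup G).Normal ∧ ∃ N : Subgroup G, N.Normal ∧ N.IsComplement' (P : Subgroup G) ∧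
      ∀ x ∈ N, ∀ y ∈ (P : Subgroup G), x * y = y * x := by
  have hp : p.Prime := Fact.out
  -- Step 1: every element is conjugate into the normalizer of `P`
  have h1 : normalizer ((P : Subgroup G) : Set G) = ⊤ := by
    apply eq_top_of_forall_conj_mem
    intro z
    obtain ⟨a, b, hab, ⟨k, hk⟩, hb⟩ := exists_p_decomp p z
    obtain ⟨c, hc⟩ := exists_conj_mem_centralizer_sylow P (z ^ b) (h _ hb)
    -- `P ≤ C(t')` where `t' = c t c⁻¹`
    set t' := c * z ^ b * c⁻¹ with ht'
    set s' := c * z ^ a * c⁻¹ with hs'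
    have hPK : (P : Subgroup G) ≤ centralizer ({t'} : Set G) := by
      intro y hy
      rw [mem_cent_singleton]
      exact (mem_centralizer_iff.1 hc) y hy
    have hs'K : s' ∈ centralizer ({t'} : Set G) := by
      rw [mem_cent_singleton, hs', ht']
      have : z ^ a * z ^ b = z ^ b * z ^ a := by rw [← pow_add, ← pow_add, add_comm]
      calc c * z ^ a * c⁻¹ * (c * z ^ b * c⁻¹) = c * (z ^ a * z ^ b) * c⁻¹ := by group
        _ = c * (z ^ b * z ^ a) * c⁻¹ := by rw [this]
        _ = _ := by group
    have hs'p : ∃ k : ℕ, s' ^ (p ^ k) = 1 := by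
      refine ⟨k, ?_⟩
      rw [hs', conj_pow, hk]; group
    obtain ⟨d, hd, hds⟩ := exists_conj_mem_sylow_of_le _ P hPK s' hs'K hs'p
    refine ⟨d * c, ?_⟩
    have hdt : d * t' * d⁻¹ = t' := by
      rw [mem_cent_singleton.1 hd]; group
    have e : d * c * z * (d * c)⁻¹ = (d * s' * d⁻¹) * t' := by
      conv_rhs => rw [← hdt]
      rw [hs', ht']
      conv_lhs => rw [← hab]
      group
    rw [e]
    exact mul_mem (le_normalizer hds) (centralizer_le_normalizer _ hc)
  have hPn : (P : Subgroup G).Normal := normalizer_eq_top_iff.1 h1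
  refine ⟨hPn, ?_⟩
  -- Step 2: a complement, by Schur-Zassenhaus
  obtain ⟨K, hK⟩ := exists_right_complement'_of_coprime (N := (P : Subgroup G)) P.card_coprime_index
  have hKcard : Nat.card K = (P : Subgroup G).index := hK.symm.index_eq_card.symm
  have hcomm : ∀ x ∈ K, ∀ y ∈ (P : Subgroup G), x * y = y * x := by
    intro x hx y hy
    have hx1 : ¬ p ∣ orderOf x := by
      intro hdvd
      apply P.not_dvd_index
      rw [← hKcard]
      have : orderOf (⟨x, hx⟩ : K) ∣ Nat.card K := orderOf_dvd_natCard _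
      rw [Subgroup.orderOf_mk] at this
      exact hdvd.trans this
    obtain ⟨c, hc⟩ := exists_conj_mem_centralizer_sylow P x (h _ hx1)
    have h2 := (mem_centralizer_iff.1 hc) (c * y * c⁻¹) (hPn.conj_mem y hy c)
    have h3 : c * (y * x) * c⁻¹ = c * (x * y) * c⁻¹ := by
      calc c * (y * x) * c⁻¹ = c * y * c⁻¹ * (c * x * c⁻¹) := by group
        _ = c * x * c⁻¹ * (c * y * c⁻¹) := h2
        _ = _ := by group
    exact (mul_left_cancel (mul_right_cancel h3)).symm
  have hKn : K.Normal := by
    rw [← normalizer_eq_top_iff, eq_top_iff, ← hK.sup_eq_top]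
    refine sup_le ?_ le_normalizer
    refine le_trans ?_ (centralizer_le_normalizer _)
    intro y hy
    rw [mem_centralizer_iff]
    intro x hx
    exact hcomm x hx y hy
  exact ⟨K, hKn, hK.symm, hcomm⟩

end Cfsg.Agent.Lib.Helper69
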