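import Mathlib
import Cfsg.Agent.Lib.Helper69.ClassSize
import Cfsg.Agent.Lib.Helper69.SylowCent
import Cfsg.Agent.Lib.Helper69.SubgroupSylow

/-!
# Groups with two class sizes (Ito), part 1: general lemmas
-/

set_option autoImplicit false

namespace Cfsg.Agent.Lib.Helper69

open Subgroup

variable {G : Type*} [Group G]

theorem eq_of_le_of_index_eq [Finite G] {H K : Subgroup G} (hle : H ≤ K) (hidx : H.index = K.index) :
    H = K := by
  apply eq_of_le_of_card_ge hle
  have h1 := H.card_mul_index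
  have h2 := K.card_mul_index
  rw [hidx] at h1
  have h3 : 0 < K.index := Nat.pos_of_ne_zero index_ne_zero_of_finite
  have h4 : Nat.card H * K.index = Nat.card K * K.index := h1.trans h2.symm
  exact (Nat.eq_of_mul_eq_mul_right h3 h4).ge

/-- hypothesis: two class sizes -/
def TwoSizes (G : Type*) [Group G] (n : ℕ) : Prop :=
  ∀ x : G, (centralizer ({x} : Set G)).index = 1 ∨ (centralizer ({x} : Set G)).index = n

theorem TwoSizes.index_eq {n : ℕ} (h : TwoSizes G n) {x : G} (hx : x ∉ center G) :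
    (centralizer ({x} : Set G)).index = n := by
  rcases h x with h1 | h1
  · exact absurd ((index_centralizer_eq_one_iff x).1 h1) hx
  · exact h1

/-- if `C(x) ≤ C(y)` with `y` non-central then equality holds -/
theorem TwoSizes.centralizer_eq [Finite G] {n : ℕ} (h : TwoSizes G n) {x y : G}
    (hy : y ∉ center G)
    (hle : centralizer ({x} : Set G) ≤ centralizer ({y} : Set G)) :
    centralizer ({x} : Set G) = centralizer ({y} : Set G) := by
  have hx : x ∉ center G := by
    intro hx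
    apply hy
    rw [← index_centralizer_eq_one_iff, index_eq_one] at hx ⊢
    rw [eq_top_iff, ← hx]; exact hle
  exact eq_of_le_of_index_eq hle ((h.index_eq hx).trans (h.index_eq hy).symm)

/-- Fact A -/
theorem TwoSizes.centralizer_le_of_coprime [Finite G] {n : ℕ} (h : TwoSizes G n) {a v : G}
    (ha : a ∉ center G) (hc : Commute a v) (hcop : (orderOf a).Coprime (orderOf v)) :
    centralizer ({a} : Set G) ≤ centralizer ({v} : Set G) := by
  have h1 := centralizer_mul_of_coprime hc hcop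
  have h2 : a * v ∉ center G := by
    intro h3
    apply ha
    rw [← index_centralizer_eq_one_iff, index_eq_one] at h3 ⊢
    rw [h1] at h3
    rw [eq_top_iff, ← h3]; exact inf_le_left
  have h3 : centralizer ({a * v} : Set G) = centralizer ({a} : Set G) :=
    h.centralizer_eq ha (h1 ▸ inf_le_left)
  rw [← h3, h1]; exact inf_le_right

theorem coprime_orderOf_of_pow {s t : ℕ} (hs : s.Prime) (ht : t.Prime) (hst : s ≠ t) {a w : G}
    (ha : ∃ k : ℕ, a ^ (s ^ k) = 1) (hw : ∃ k : ℕ, w ^ (t ^ k) = 1) :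
    (orderOf a).Coprime (orderOf w) := by
  obtain ⟨k, hk⟩ := ha
  obtain ⟨l, hl⟩ := hw
  exact Nat.Coprime.of_dvd (orderOf_dvd_of_pow_eq_one hk) (orderOf_dvd_of_pow_eq_one hl)
    (Nat.Coprime.pow _ _ ((Nat.coprime_primes hs ht).2 hst))

/-- number of `t`-elements of a subgroup in which they are central -/
theorem card_pElements [Finite G] (t : ℕ) [Fact t.Prime] (X : Subgroup G)
    (hcent : ∀ x ∈ X, (∃ k : ℕ, x ^ (t ^ k) = 1) → ∀ y ∈ X, x * y = y * x) :
    Nat.card {x : G // x ∈ X ∧ ∃ k : ℕ, x ^ (t ^ k) = 1} = ordProj[t] (Nat.card X) := by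
  obtain ⟨T⟩ : Nonempty (Sylow t X) := inferInstance
  rw [← T.card_eq_multiplicity]
  symm
  apply Nat.card_congr
  refine Equiv.ofBijective (fun u => ⟨(u : X), (u : X).2, ?_⟩) ⟨?_, ?_⟩
  · obtain ⟨k, hk⟩ := T.2 u
    refine ⟨k, ?_⟩
    have := congrArg (fun v : (T : Subgroup X) => ((v : X) : G)) hk
    simpa using this
  · intro u v huv
    have : ((u : X) : G) = ((v : X) : G) := congrArg (fun z => z.1) huv
    exact Subtype.ext (Subtype.ext this)
  · rintro ⟨x, hxX, k, hk⟩
    have hz : IsPGroup t (zpowers (⟨x, hxX⟩ : X)) := by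
      apply IsPGroup.of_card_dvd_pow (n := k)
      rw [Nat.card_zpowers]
      apply orderOf_dvd_of_pow_eq_one
      ext
      simpa using hk
    obtain ⟨T', hT'⟩ := hz.exists_le_sylow
    obtain ⟨g, hg⟩ := MulAction.exists_smul_eq X T' T
    have hx' : (⟨x, hxX⟩ : X) ∈ T' := hT' (mem_zpowers _)
    have hx2 : g * (⟨x, hxX⟩ : X) * g⁻¹ ∈ T := by
      rw [← hg, mem_smul_sylow]
      have e : g⁻¹ * (g * (⟨x, hxX⟩ : X) * g⁻¹) * g = ⟨x, hxX⟩ := by group
      rw [e]; exact hx'
    have hx3 : g * (⟨x, hxX⟩ : X) * g⁻¹ = ⟨x, hxX⟩ := by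
      apply Subtype.ext
      show (g : G) * x * (g : G)⁻¹ = x
      rw [← hcent x hxX ⟨k, hk⟩ g g.2]; group
    rw [hx3] at hx2
    exact ⟨⟨⟨x, hxX⟩, hx2⟩, rfl⟩

/-- conjugation action of a subgroup on an invariant set -/
def conjActionOn (S : Subgroup G) (W : Set G) (hW : ∀ g ∈ S, ∀ w ∈ W, g * w * g⁻¹ ∈ W) :
    MulAction S W where
  smul g w := ⟨(g : G) * w * (g : G)⁻¹, hW g g.2 w w.2⟩
  one_smul w := by
    apply Subtype.ext
    show ((1 : S) : G) * w * ((1 : S) : G)⁻¹ = w
    simp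
  mul_smul g h w := by
    apply Subtype.ext
    show ((g * h : S) : G) * w * ((g * h : S) : G)⁻¹ = (g : G) * ((h : G) * w * (h : G)⁻¹) * (g : G)⁻¹
    rw [Subgroup.coe_mul]; group

theorem dvd_card_of_relIndex_centralizer [Finite G] (S : Subgroup G) (W : Set G)
    (hW : ∀ g ∈ S, ∀ w ∈ W, g * w * g⁻¹ ∈ W) (d : ℕ)
    (hd : ∀ w ∈ W, (centralizer ({w} : Set G)).relIndex S = d) : d ∣ Nat.card W := by
  classical
  letI := conjActionOn S W hW
  have := Fintype.ofFinite (Quotient (MulAction.orbitRel S W))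
  rw [Nat.card_congr (MulAction.selfEquivSigmaOrbitsQuotientStabilizer S W), Nat.card_sigma]
  apply Finset.dvd_sum
  intro ω _
  have hst : MulAction.stabilizer S ω.out = (centralizer ({(ω.out : G)} : Set G)).subgroupOf S := by
    ext g
    rw [MulAction.mem_stabilizer_iff, mem_subgroupOf, mem_cent_singleton, Subtype.ext_iff]
    show (g : G) * (ω.out : G) * (g : G)⁻¹ = (ω.out : G) ↔ _
    exact mul_inv_eq_iff_eq_mul
  have : Nat.card (S ⧸ MulAction.stabilizer S ω.out) = d := by
    rw [hst, ← hd (ω.out : G) ω.out.2]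
    rfl
  rw [this]

end Cfsg.Agent.Lib.Helper69
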