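import Mathlib
import Cfsg.Agent.Lib.Helper69.Ito1
import Cfsg.Agent.Lib.Lead.Cores

/-!
# Groups with two class sizes (Ito), part 2: centralizers modulo the centre
-/

set_option autoImplicit false

namespace Cfsg.Agent.Lib.Helper69

open Subgroup

variable {G : Type*} [Group G]

/-- order of `C(x)/Z(G)` -/
noncomputable def cq (x : G) : ℕ :=
  Nat.card ((centralizer ({x} : Set G)).map (QuotientGroup.mk' (center G)))

theorem center_le_centralizer_singleton (x : G) : center G ≤ centralizer ({x} : Set G) :=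
  center_le_centralizer _

theorem card_centralizer_eq [Finite G] (x : G) :
    Nat.card (centralizer ({x} : Set G)) = Nat.card (center G) * cq x := by
  rw [cq, ← Cfsg.Agent.Lib.Lead.card_comap_mk', comap_map_eq_self]
  rw [QuotientGroup.ker_mk']
  exact center_le_centralizer_singleton x

theorem TwoSizes.cq_eq [Finite G] {n : ℕ} (h : TwoSizes G n) {x y : G} (hx : x ∉ center G)
    (hy : y ∉ center G) : cq x = cq y := by
  have h1 := (centralizer ({x} : Set G)).card_mul_index
  have h2 := (centralizer ({y} : Set G)).card_mul_index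
  rw [h.index_eq hx, card_centralizer_eq] at h1
  rw [h.index_eq hy, card_centralizer_eq] at h2
  have hn : 0 < n := by
    rw [← h.index_eq hx]; exact Nat.pos_of_ne_zero index_ne_zero_of_finite
  have hz : 0 < Nat.card (center G) := Nat.card_pos
  have h3 : Nat.card (center G) * cq x * n = Nat.card (center G) * cq y * n := h1.trans h2.symm
  exact Nat.eq_of_mul_eq_mul_left hz (Nat.eq_of_mul_eq_mul_right hn h3)

theorem dvd_cq_of_pElement [Finite G] {t : ℕ} (ht : t.Prime) {y : G} (hy : y ∉ center G)
    (hyt : ∃ k : ℕ, y ^ (t ^ k) = 1) : t ∣ cq y := by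
  obtain ⟨k, hk⟩ := hyt
  set f := QuotientGroup.mk' (center G) with hf
  have h1 : f y ∈ (centralizer ({y} : Set G)).map f :=
    ⟨y, mem_cent_singleton.2 rfl, rfl⟩
  have h2 : orderOf (f y) ∣ cq y := Subgroup.orderOf_dvd_natCard _ h1
  have h3 : orderOf (f y) ∣ t ^ k :=
    (orderOf_map_dvd f y).trans (orderOf_dvd_of_pow_eq_one hk)
  obtain ⟨j, -, hj⟩ := (Nat.dvd_prime_pow ht).1 h3
  have hj0 : j ≠ 0 := by
    rintro rfl
    rw [pow_zero, orderOf_eq_one_iff] at hj
    exact hy ((QuotientGroup.eq_one_iff y).1 hj)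
  exact (dvd_pow_self t hj0).trans (hj ▸ h2)

theorem exists_noncentral_pElement [Finite G] {t : ℕ} [Fact t.Prime] {a : G} (hta : t ∣ cq a) :
    ∃ w ∈ centralizer ({a} : Set G), w ∉ center G ∧ ∃ k : ℕ, w ^ (t ^ k) = 1 := by
  set f := QuotientGroup.mk' (center G) with hf
  obtain ⟨⟨ub, hub⟩, hord⟩ := exists_prime_orderOf_dvd_card' (G := (centralizer ({a} : Set G)).map f) t hta
  rw [Subgroup.orderOf_mk] at hord
  obtain ⟨u, hu, rfl⟩ := hub
  obtain ⟨i, j, hij, hi, hj⟩ := exists_p_decomp t u
  refine ⟨u ^ i, pow_mem hu i, ?_, hi⟩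
  intro hc
  apply hj
  have h1 : f (u ^ i) = 1 := (QuotientGroup.eq_one_iff _).2 hc
  have h2 : f u = f (u ^ j) := by
    conv_lhs => rw [← hij]
    rw [map_mul, h1, one_mul]
  rw [← hord, h2]
  exact orderOf_map_dvd f _

theorem coprime_orderOf_of_not_dvd {s : ℕ} (hs : s.Prime) {a v : G} (ha : ∃ k : ℕ, a ^ (s ^ k) = 1)
    (hv : ¬ s ∣ orderOf v) : (orderOf a).Coprime (orderOf v) := by
  obtain ⟨k, hk⟩ := ha
  exact Nat.Coprime.of_dvd_left (orderOf_dvd_of_pow_eq_one hk)
    (Nat.Coprime.pow_left _ ((Nat.Prime.coprime_iff_not_dvd hs).2 hv))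

/-- centralizers are abelian as soon as two primes are involved -/
theorem TwoSizes.centralizer_abelian [Finite G] {n : ℕ} (h : TwoSizes G n) {s t : ℕ}
    [Fact s.Prime] [Fact t.Prime] (hst : s ≠ t) {a : G} (ha : a ∉ center G)
    (has : ∃ k : ℕ, a ^ (s ^ k) = 1) (hta : t ∣ cq a) :
    ∀ u ∈ centralizer ({a} : Set G), ∀ v ∈ centralizer ({a} : Set G), u * v = v * u := by
  have hs : s.Prime := Fact.out
  have ht : t.Prime := Fact.out
  obtain ⟨w, hwa, hwZ, hwt⟩ := exists_noncentral_pElement hta
  have hcw : Commute a w := (mem_cent_singleton.1 hwa).symm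
  have h1 : centralizer ({a} : Set G) = centralizer ({w} : Set G) :=
    h.centralizer_eq hwZ (h.centralizer_le_of_coprime ha hcw (coprime_orderOf_of_pow hs ht hst has hwt))
  intro u hu v hv
  obtain ⟨i, j, hij, hi, hj⟩ := exists_p_decomp s u
  have hcu : Commute a u := (mem_cent_singleton.1 hu).symm
  have h2 : v ∈ centralizer ({u ^ j} : Set G) :=
    h.centralizer_le_of_coprime ha (hcu.pow_right j) (coprime_orderOf_of_not_dvd hs has hj) hv
  have hcu' : Commute w u := by
    rw [h1] at hu
    exact (mem_cent_singleton.1 hu).symm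
  have h3 : v ∈ centralizer ({u ^ i} : Set G) :=
    h.centralizer_le_of_coprime hwZ (hcu'.pow_right i)
      (coprime_orderOf_of_pow ht hs hst.symm hwt hi) (h1 ▸ hv)
  rw [mem_cent_singleton] at h2 h3
  rw [← hij, mul_assoc, ← h2, ← mul_assoc, ← h3, mul_assoc]

/-- two distinct abelian centralizers meet in the centre, whence `c ≤ n` -/
theorem TwoSizes.cq_le [Finite G] {n : ℕ} (h : TwoSizes G n) {a b : G} (ha : a ∉ center G)
    (hb : b ∉ center G)
    (haa : ∀ u ∈ centralizer ({a} : Set G), ∀ v ∈ centralizer ({a} : Set G), u * v = v * u)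
    (hbb : ∀ u ∈ centralizer ({b} : Set G), ∀ v ∈ centralizer ({b} : Set G), u * v = v * u)
    (hab : b ∉ centralizer ({a} : Set G)) : cq a ≤ n := by
  have hinf : centralizer ({a} : Set G) ⊓ centralizer ({b} : Set G) = center G := by
    apply le_antisymm
    · rintro w ⟨hwa, hwb⟩
      by_contra hw
      have h1 : centralizer ({a} : Set G) = centralizer ({w} : Set G) :=
        h.centralizer_eq hw (fun u hu => mem_cent_singleton.2 (haa u hu w hwa))
      have h2 : centralizer ({b} : Set G) = centralizer ({w} : Set G) :=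
        h.centralizer_eq hw (fun u hu => mem_cent_singleton.2 (hbb u hu w hwb))
      apply hab
      rw [h1, ← h2]
      exact mem_cent_singleton.2 rfl
    · exact le_inf (center_le_centralizer_singleton a) (center_le_centralizer_singleton b)
  have h1 := index_inf_le (H := centralizer ({a} : Set G)) (K := centralizer ({b} : Set G))
  rw [hinf, h.index_eq ha, h.index_eq hb] at h1
  have h2 := (center G).card_mul_index
  have h3 := (centralizer ({a} : Set G)).card_mul_index
  rw [h.index_eq ha, card_centralizer_eq, ← h2, mul_assoc] at h3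
  have hz : 0 < Nat.card (center G) := Nat.card_pos
  have h4 : cq a * n = (center G).index := Nat.eq_of_mul_eq_mul_left hz h3
  have hn : 0 < n := by
    rw [← h.index_eq ha]; exact Nat.pos_of_ne_zero index_ne_zero_of_finite
  rw [← h4] at h1
  exact Nat.le_of_mul_le_mul_right h1 hn

end Cfsg.Agent.Lib.Helper69
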