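import Mathlib
import Cfsg.Agent.Lib.Helper69.Ito2

/-!
# Groups with two class sizes (Ito), part 3: `n` is a prime power
-/

set_option autoImplicit false

namespace Cfsg.Agent.Lib.Helper69

open Subgroup

variable {G : Type*} [Group G]

theorem TwoSizes.mem_center_of_sylow_le [Finite G] {n s : ℕ} [Fact s.Prime] (h : TwoSizes G n)
    (hsn : s ∣ n) (S : Sylow s G) {u : G} (hu : (S : Subgroup G) ≤ centralizer ({u} : Set G)) :
    u ∈ center G := by
  by_contra hc
  have h1 := h.index_eq hc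
  exact S.not_dvd_index ((h1 ▸ hsn).trans (index_dvd_of_le hu))

theorem TwoSizes.exists_second_center [Finite G] {n s : ℕ} [Fact s.Prime] (h : TwoSizes G n)
    (hsn : s ∣ n) (hex : ∃ x : G, x ∉ center G) (S : Sylow s G) :
    ∃ z ∈ S, z ∉ center G ∧ ∀ g ∈ S, g * z * g⁻¹ * z⁻¹ ∈ center G := by
  have hcen : ∀ u : (S : Subgroup G), u ∈ center (S : Subgroup G) → (u : G) ∈ center G := by
    intro u hu
    apply h.mem_center_of_sylow_le hsn S
    intro g hg
    rw [mem_cent_singleton]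
    exact congrArg Subtype.val ((mem_center_iff.1 hu) ⟨g, hg⟩)
  have hne : center (S : Subgroup G) ≠ ⊤ := by
    intro htop
    obtain ⟨x, hx⟩ := hex
    have h1 : (S : Subgroup G) ≤ centralizer ({x} : Set G) := fun g hg =>
      center_le_centralizer_singleton x (hcen ⟨g, hg⟩ (htop ▸ mem_top _))
    exact hx (h.mem_center_of_sylow_le hsn S h1)
  have hnt : Nontrivial ((S : Subgroup G) ⧸ center (S : Subgroup G)) := by
    rw [← not_subsingleton_iff_nontrivial]
    intro hsub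
    apply hne
    rw [eq_top_iff]
    intro u _
    rw [← QuotientGroup.eq_one_iff]
    exact Subsingleton.elim _ _
  have hp : IsPGroup s ((S : Subgroup G) ⧸ center (S : Subgroup G)) := S.2.to_quotient _
  have hcn := hp.center_nontrivial
  obtain ⟨⟨zb, hzb⟩, hzb1⟩ := exists_ne (1 : center ((S : Subgroup G) ⧸ center (S : Subgroup G)))
  obtain ⟨z, rfl⟩ := QuotientGroup.mk_surjective zb
  refine ⟨z, z.2, ?_, ?_⟩
  · intro hz
    apply hzb1
    apply Subtype.ext
    show (z : (S : Subgroup G) ⧸ center (S : Subgroup G)) = 1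
    rw [QuotientGroup.eq_one_iff, mem_center_iff]
    intro g
    exact Subtype.ext ((mem_center_iff.1 hz) g)
  · intro g hg
    have h1 : (⟨g, hg⟩ : (S : Subgroup G)) * z * (⟨g, hg⟩ : (S : Subgroup G))⁻¹ * z⁻¹ ∈
        center (S : Subgroup G) := by
      rw [← QuotientGroup.eq_one_iff]
      have h2 := (mem_center_iff.1 hzb) ((⟨g, hg⟩ : (S : Subgroup G)) : (S : Subgroup G) ⧸ center (S : Subgroup G))
      rw [QuotientGroup.mk_mul, QuotientGroup.mk_mul, QuotientGroup.mk_mul, h2,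
        QuotientGroup.mk_inv, QuotientGroup.mk_inv]
      group
    exact hcen _ h1

theorem TwoSizes.ordProj_dvd [Finite G] {n s t : ℕ} [Fact s.Prime] [Fact t.Prime]
    (h : TwoSizes G n) (hst : s ≠ t) (S : Sylow s G) {z : G} (hzS : z ∈ S) (hz : z ∉ center G)
    (hzn : ∀ g ∈ S, g * z * g⁻¹ * z⁻¹ ∈ center G) :
    ordProj[s] n ∣ ordProj[t] (cq z) - 1 := by
  have hs : s.Prime := Fact.out
  have ht : t.Prime := Fact.out
  set C := centralizer ({z} : Set G) with hC
  have has : ∃ k : ℕ, z ^ (s ^ k) = 1 := by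
    obtain ⟨k, hk⟩ := S.2 ⟨z, hzS⟩
    exact ⟨k, by simpa using congrArg Subtype.val hk⟩
  set A : Set G := {x | x ∈ C ∧ ∃ k : ℕ, x ^ (t ^ k) = 1} with hA
  set B : Set G := {x | x ∈ center G ∧ ∃ k : ℕ, x ^ (t ^ k) = 1} with hB
  have hBA : B ⊆ A := fun x hx => ⟨center_le_centralizer_singleton z hx.1, hx.2⟩
  have hle : ∀ x ∈ A, C ≤ centralizer ({x} : Set G) := by
    intro x hx
    exact h.centralizer_le_of_coprime hz (mem_cent_singleton.1 hx.1).symm
      (coprime_orderOf_of_pow hs ht hst has hx.2)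
  have hWc : ∀ w ∈ A \ B, w ∉ center G := fun w hw hc => hw.2 ⟨hc, hw.1.2⟩
  have hWC : ∀ w ∈ A \ B, centralizer ({w} : Set G) = C := fun w hw =>
    (h.centralizer_eq (hWc w hw) (hle w hw.1)).symm
  have hinv : ∀ g ∈ (S : Subgroup G), ∀ w ∈ A \ B, g * w * g⁻¹ ∈ A \ B := by
    intro g hg w hw
    refine ⟨⟨?_, ?_⟩, ?_⟩
    · rw [hC, mem_cent_singleton]
      obtain ⟨ζ, hζc, e⟩ : ∃ ζ ∈ center G, g⁻¹ * z * g = ζ * z :=
        ⟨_, hzn g⁻¹ (inv_mem hg), by group⟩
      have hwz : w * z = z * w := mem_cent_singleton.1 hw.1.1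
      have hcomm : w * (ζ * z) = (ζ * z) * w := by
        calc w * (ζ * z) = (w * ζ) * z := by group
          _ = (ζ * w) * z := by rw [(mem_center_iff.1 hζc) w]
          _ = ζ * (w * z) := by group
          _ = ζ * (z * w) := by rw [hwz]
          _ = (ζ * z) * w := by group
      calc (g * w * g⁻¹) * z = g * (w * (g⁻¹ * z * g)) * g⁻¹ := by group
        _ = g * ((g⁻¹ * z * g) * w) * g⁻¹ := by rw [e, hcomm]
        _ = z * (g * w * g⁻¹) := by group
    · obtain ⟨k, hk⟩ := hw.1.2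
      exact ⟨k, by rw [conj_pow, hk]; group⟩
    · intro hb
      apply hWc w hw
      have := (inferInstance : (center G).Normal).conj_mem _ hb.1 g⁻¹
      have e : g⁻¹ * (g * w * g⁻¹) * g⁻¹⁻¹ = w := by group
      rwa [e] at this
  set d := C.relIndex (S : Subgroup G) with hd
  have hdvd : d ∣ Nat.card ↥(A \ B) :=
    dvd_card_of_relIndex_centralizer (S : Subgroup G) (A \ B) hinv d (fun w hw => by rw [hWC w hw])
  have hAcard : A.ncard = ordProj[t] (Nat.card C) := by
    rw [← Nat.card_coe_set_eq]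
    exact card_pElements t C (fun x hx hxt y hy =>
      (mem_cent_singleton.1 (hle x ⟨hx, hxt⟩ hy)).symm)
  have hBcard : B.ncard = ordProj[t] (Nat.card (center G)) := by
    rw [← Nat.card_coe_set_eq]
    exact card_pElements t (center G) (fun x hx _ y _ => ((mem_center_iff.1 hx) y).symm)
  rw [Nat.card_coe_set_eq, Set.ncard_sdiff hBA (Set.toFinite _), hAcard, hBcard, hC,
    card_centralizer_eq] at hdvd
  have hz0 : Nat.card (center G) ≠ 0 := Nat.card_pos.ne'
  have hc0 : cq z ≠ 0 := by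
    intro h0
    have := card_centralizer_eq z
    rw [h0, mul_zero] at this
    exact Nat.card_pos.ne' this
  rw [Nat.ordProj_mul _ hz0 hc0] at hdvd
  have e1 : ordProj[t] (Nat.card (center G)) * ordProj[t] (cq z) - ordProj[t] (Nat.card (center G)) =
      ordProj[t] (Nat.card (center G)) * (ordProj[t] (cq z) - 1) := by
    rw [Nat.mul_sub, mul_one]
  rw [e1] at hdvd
  have hdS : d ∣ Nat.card (S : Subgroup G) := relIndex_dvd_card _ _
  have hcop : d.Coprime (ordProj[t] (Nat.card (center G))) := by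
    rw [S.card_eq_multiplicity] at hdS
    exact Nat.Coprime.of_dvd_left hdS (Nat.Coprime.pow _ _ ((Nat.coprime_primes hs ht).2 hst))
  have hd1 : d ∣ ordProj[t] (cq z) - 1 := hcop.dvd_of_dvd_mul_left hdvd
  refine dvd_trans ?_ hd1
  have e2 : (C ⊓ (S : Subgroup G)).relIndex (S : Subgroup G) * (S : Subgroup G).index =
      (C ⊓ (S : Subgroup G)).index := relIndex_mul_index inf_le_right
  have e3 : (C ⊓ (S : Subgroup G)).relIndex C * C.index = (C ⊓ (S : Subgroup G)).index :=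
    relIndex_mul_index inf_le_left
  rw [inf_relIndex_right] at e2
  have hCn : C.index = n := h.index_eq hz
  have h4 : n ∣ d * (S : Subgroup G).index := by
    rw [hd, e2, ← e3, hCn]; exact dvd_mul_left _ _
  have h5 : (ordProj[s] n).Coprime (S : Subgroup G).index :=
    Nat.Coprime.pow_left _ ((Nat.Prime.coprime_iff_not_dvd hs).2 S.not_dvd_index)
  exact h5.dvd_of_dvd_mul_right ((Nat.ordProj_dvd n s).trans h4)

/-- Ito: `n` is a prime power -/
theorem TwoSizes.exists_eq_prime_pow [Finite G] {n : ℕ} (h : TwoSizes G n) (hn : 1 < n)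
    (hex : ∃ x : G, x ∉ center G) : ∃ p a : ℕ, p.Prime ∧ n = p ^ a := by
  by_contra hcon
  push Not at hcon
  have hn0 : n ≠ 0 := by omega
  obtain ⟨p, hp, hpn⟩ := Nat.exists_prime_and_dvd (by omega : n ≠ 1)
  have hsplit : ordProj[p] n * ordCompl[p] n = n := Nat.ordProj_mul_ordCompl_eq_self n p
  have hco1 : ordCompl[p] n ≠ 1 := by
    intro h1
    rw [h1, mul_one] at hsplit
    exact hcon p _ hp hsplit.symm
  obtain ⟨r, hr, hrc⟩ := Nat.exists_prime_and_dvd hco1
  have hrn : r ∣ n := hrc.trans (Nat.ordCompl_dvd n p)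
  have hrp : r ≠ p := by
    rintro rfl
    exact Nat.not_dvd_ordCompl hp hn0 hrc
  obtain ⟨x₀, hx₀⟩ := hex
  set c := cq x₀ with hc
  have hc0 : c ≠ 0 := by
    intro h0
    have := card_centralizer_eq x₀
    rw [← hc, h0, mul_zero] at this
    exact Nat.card_pos.ne' this
  -- the key divisibility for all pairs of primes dividing `n`
  have key : ∀ s t : ℕ, s.Prime → t.Prime → s ≠ t → s ∣ n → ordProj[s] n ∣ ordProj[t] c - 1 := by
    intro s t hs ht hst hsn
    have : Fact s.Prime := ⟨hs⟩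
    have : Fact t.Prime := ⟨ht⟩
    obtain ⟨S⟩ : Nonempty (Sylow s G) := inferInstance
    obtain ⟨z, hzS, hz, hzn⟩ := h.exists_second_center hsn ⟨x₀, hx₀⟩ S
    rw [hc, h.cq_eq hx₀ hz]
    exact h.ordProj_dvd hst S hzS hz hzn
  have hdvdc : ∀ t : ℕ, t.Prime → t ∣ n → t ∣ c := by
    intro t ht htn
    have : Fact t.Prime := ⟨ht⟩
    obtain ⟨S⟩ : Nonempty (Sylow t G) := inferInstance
    obtain ⟨z, hzS, hz, -⟩ := h.exists_second_center htn ⟨x₀, hx₀⟩ S
    rw [hc, h.cq_eq hx₀ hz]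
    apply dvd_cq_of_pElement ht hz
    obtain ⟨k, hk⟩ := S.2 ⟨z, hzS⟩
    exact ⟨k, by simpa using congrArg Subtype.val hk⟩
  have hone : ∀ t : ℕ, t.Prime → t ∣ n → 1 < ordProj[t] c := by
    intro t ht htn
    have h1 : t ∣ ordProj[t] c := Nat.dvd_ordProj_of_dvd hc0 ht (hdvdc t ht htn)
    have h2 : 0 < ordProj[t] c := Nat.ordProj_pos c t
    exact lt_of_lt_of_le ht.one_lt (Nat.le_of_dvd h2 h1)
  -- `c ≤ n`
  have hcn : c ≤ n := by
    have : Fact p.Prime := ⟨hp⟩
    have : Fact r.Prime := ⟨hr⟩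
    obtain ⟨P⟩ : Nonempty (Sylow p G) := inferInstance
    obtain ⟨z, hzS, hz, -⟩ := h.exists_second_center hpn ⟨x₀, hx₀⟩ P
    have hnle : ¬ (P : Subgroup G) ≤ centralizer ({z} : Set G) := fun hle =>
      hz (h.mem_center_of_sylow_le hpn P hle)
    obtain ⟨b, hbP, hbz⟩ := SetLike.not_le_iff_exists.1 hnle
    have hb : b ∉ center G := fun hb => hbz (center_le_centralizer_singleton z hb)
    have hpel : ∀ u ∈ P, ∃ k : ℕ, u ^ (p ^ k) = 1 := by
      intro u hu
      obtain ⟨k, hk⟩ := P.2 ⟨u, hu⟩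
      exact ⟨k, by simpa using congrArg Subtype.val hk⟩
    have hrz : r ∣ cq z := by rw [← h.cq_eq hx₀ hz]; exact hdvdc r hr hrn
    have hrb : r ∣ cq b := by rw [← h.cq_eq hx₀ hb]; exact hdvdc r hr hrn
    rw [hc, h.cq_eq hx₀ hz]
    exact h.cq_le hz hb (h.centralizer_abelian hrp.symm hz (hpel z hzS) hrz)
      (h.centralizer_abelian hrp.symm hb (hpel b hbP) hrb) hbz
  have ha : ordProj[p] n ∣ ordProj[r] c - 1 := key p r hp hr hrp.symm hpn
  have hb : ordCompl[p] n ∣ ordProj[p] c - 1 := by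
    rw [Nat.dvd_iff_prime_pow_dvd_dvd]
    intro s k hs hsk
    rcases Nat.eq_zero_or_pos k with rfl | hk
    · simp
    have hsc : s ∣ ordCompl[p] n := (dvd_pow_self s hk.ne').trans hsk
    have hsn : s ∣ n := hsc.trans (Nat.ordCompl_dvd n p)
    have hsp : s ≠ p := by
      rintro rfl
      exact Nat.not_dvd_ordCompl hp hn0 hsc
    have h1 : s ^ k ∣ n := hsk.trans (Nat.ordCompl_dvd n p)
    have h2 : s ^ k ∣ ordProj[s] n :=
      pow_dvd_pow s ((Nat.Prime.pow_dvd_iff_le_factorization hs hn0).1 h1)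
    exact h2.trans (key s p hs hp hsp hsn)
  have hkp := hone p hp hpn
  have hkr := hone r hr hrn
  have hmul : ordProj[p] c * ordProj[r] c ∣ c :=
    Nat.Coprime.mul_dvd_of_dvd_of_dvd (Nat.Coprime.pow _ _ ((Nat.coprime_primes hp hr).2 hrp.symm))
      (Nat.ordProj_dvd c p) (Nat.ordProj_dvd c r)
  have h1 : ordProj[p] n ≤ ordProj[r] c - 1 := Nat.le_of_dvd (by omega) ha
  have h2 : ordCompl[p] n ≤ ordProj[p] c - 1 := Nat.le_of_dvd (by omega) hb
  have h3 : ordProj[p] c * ordProj[r] c ≤ c := Nat.le_of_dvd (Nat.pos_of_ne_zero hc0) hmul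
  have h4 : n ≤ (ordProj[r] c - 1) * (ordProj[p] c - 1) := by
    rw [← hsplit]; exact Nat.mul_le_mul h1 h2
  have h5 : (ordProj[r] c - 1) * (ordProj[p] c - 1) < ordProj[p] c * ordProj[r] c := by
    rw [mul_comm (ordProj[p] c)]
    exact Nat.mul_lt_mul'' (by omega) (by omega)
  omega

end Cfsg.Agent.Lib.Helper69
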