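import Mathlib
import Cfsg.Agent.Lib.Helper69.Ito1

/-!
# Groups with two class sizes (Ito), part 4: the `p`-group case
A `p`-group with two class sizes has an abelian normal subgroup with quotient of exponent `p`.
-/

set_option autoImplicit false

namespace Cfsg.Agent.Lib.Helper69

open Subgroup

theorem TwoSizes.exists_abelian_normal_pow_mem {P : Type*} [Group P] [Finite P] {p : ℕ}
    [Fact p.Prime] (hP : IsPGroup p P) {n : ℕ} (h : TwoSizes P n) :
    ∃ A : Subgroup P, A.Normal ∧ IsMulCommutative A ∧ ∀ y : P, y ^ p ∈ A := by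
  have hp : p.Prime := Fact.out
  by_cases htop : center P = ⊤
  · refine ⟨center P, inferInstance, inferInstance, fun y => htop ▸ mem_top _⟩
  -- an element of order `p` in the centre of `P / Z(P)`
  have hnt : Nontrivial (P ⧸ center P) := by
    rw [← not_subsingleton_iff_nontrivial]
    intro hsub
    apply htop
    rw [eq_top_iff]
    intro u _
    rw [← QuotientGroup.eq_one_iff]
    exact Subsingleton.elim _ _
  have hq : IsPGroup p (P ⧸ center P) := hP.to_quotient _
  have hcn := hq.center_nontrivial
  have hdvd : p ∣ Nat.card (center (P ⧸ center P)) := by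
    obtain ⟨k, hk⟩ := (hq.to_subgroup (center (P ⧸ center P))).exists_card_eq
    rw [hk]
    apply dvd_pow_self
    rintro rfl
    rw [pow_zero] at hk
    have := Finite.one_lt_card (α := center (P ⧸ center P))
    omega
  obtain ⟨⟨yb, hyb⟩, hord⟩ := exists_prime_orderOf_dvd_card' (G := center (P ⧸ center P)) p hdvd
  rw [Subgroup.orderOf_mk] at hord
  obtain ⟨y₀, rfl⟩ := QuotientGroup.mk_surjective yb
  have hy₀Z : y₀ ∉ center P := by
    intro hc
    rw [(QuotientGroup.eq_one_iff y₀).2 hc, orderOf_one] at hord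
    exact hp.one_lt.ne hord
  have hy₀p : y₀ ^ p ∈ center P := by
    rw [← QuotientGroup.eq_one_iff, QuotientGroup.mk_pow, ← hord, pow_orderOf_eq_one]
  have hcomm : ∀ g : P, ∃ ζ ∈ center P, g * y₀ * g⁻¹ = ζ * y₀ := by
    intro g
    refine ⟨g * y₀ * g⁻¹ * y₀⁻¹, ?_, by group⟩
    rw [← QuotientGroup.eq_one_iff]
    have h2 := (mem_center_iff.1 hyb) (g : P ⧸ center P)
    rw [QuotientGroup.mk_mul, QuotientGroup.mk_mul, QuotientGroup.mk_mul, h2,
      QuotientGroup.mk_inv, QuotientGroup.mk_inv]
    group
  set M := centralizer ({y₀} : Set P) with hM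
  have hMn : M.Normal := by
    constructor
    intro x hx g
    rw [hM, mem_cent_singleton] at hx ⊢
    obtain ⟨ζ, hζ, e⟩ := hcomm g⁻¹
    rw [inv_inv] at e
    have hc : x * (ζ * y₀) = (ζ * y₀) * x := by
      calc x * (ζ * y₀) = (x * ζ) * y₀ := by group
        _ = (ζ * x) * y₀ := by rw [(mem_center_iff.1 hζ) x]
        _ = ζ * (x * y₀) := by group
        _ = ζ * (y₀ * x) := by rw [hx]
        _ = (ζ * y₀) * x := by group
    calc (g * x * g⁻¹) * y₀ = g * (x * (g⁻¹ * y₀ * g)) * g⁻¹ := by group
      _ = g * ((g⁻¹ * y₀ * g) * x) * g⁻¹ := by rw [e, hc]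
      _ = y₀ * (g * x * g⁻¹) := by group
  have hpowM : ∀ g : P, g ^ p ∈ M := by
    intro g
    obtain ⟨ζ, hζ, e⟩ := hcomm g
    have hζc : ∀ x : P, Commute ζ x := fun x => ((mem_center_iff.1 hζ) x).symm
    -- `ζ ^ p = 1`
    have h1 : g * y₀ ^ p * g⁻¹ = ζ ^ p * y₀ ^ p := by
      rw [← conj_pow, e, (hζc y₀).mul_pow]
    have h2 : g * y₀ ^ p * g⁻¹ = y₀ ^ p := by
      rw [(mem_center_iff.1 hy₀p) g]; group
    have h3 : ζ ^ p = 1 := by
      rw [h2] at h1
      exact (mul_eq_right.1 h1.symm)
    have h4 : ∀ k : ℕ, g ^ k * y₀ * (g ^ k)⁻¹ = ζ ^ k * y₀ := by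
      intro k
      induction k with
      | zero => simp
      | succ k ih =>
        calc g ^ (k + 1) * y₀ * (g ^ (k + 1))⁻¹ = g * (g ^ k * y₀ * (g ^ k)⁻¹) * g⁻¹ := by
              rw [pow_succ']; group
          _ = g * (ζ ^ k * y₀) * g⁻¹ := by rw [ih]
          _ = (g * ζ ^ k) * y₀ * g⁻¹ := by group
          _ = (ζ ^ k * g) * y₀ * g⁻¹ := by rw [((hζc g).pow_left k).eq]
          _ = ζ ^ k * (g * y₀ * g⁻¹) := by group
          _ = ζ ^ k * (ζ * y₀) := by rw [e]
          _ = ζ ^ (k + 1) * y₀ := by rw [pow_succ]; group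
    rw [hM, mem_cent_singleton]
    have h5 := h4 p
    rw [h3, one_mul] at h5
    exact mul_inv_eq_iff_eq_mul.1 h5
  by_cases hab : ∀ u ∈ M, ∀ v ∈ M, u * v = v * u
  · exact ⟨M, hMn, ⟨⟨fun u v => Subtype.ext (hab u u.2 v v.2)⟩⟩, hpowM⟩
  push Not at hab
  obtain ⟨w, hw, w', hw', hww⟩ := hab
  refine ⟨center P, inferInstance, inferInstance, ?_⟩
  -- (i)
  have h_i : ∀ g : P, g ∉ M → g ^ p ∈ center P := by
    intro g hg
    by_contra hc
    have hle : centralizer ({g} : Set P) ≤ centralizer ({g ^ p} : Set P) := by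
      intro u hu
      rw [mem_cent_singleton] at hu ⊢
      exact ((show Commute u g from hu).pow_right p).eq
    have heq := h.centralizer_eq hc hle
    apply hg
    have h1 : y₀ ∈ centralizer ({g ^ p} : Set P) := by
      rw [mem_cent_singleton]
      exact (mem_cent_singleton.1 (hpowM g)).symm
    rw [← heq, mem_cent_singleton] at h1
    rw [hM, mem_cent_singleton]
    exact h1.symm
  -- (ii)
  have h_ii : ∀ x ∈ M, centralizer ({x} : Set P) ≠ M → x ^ p ∈ center P := by
    intro x hx hne
    by_cases hxZ : x ∈ center P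
    · exact pow_mem hxZ p
    have hnle : ¬ centralizer ({x} : Set P) ≤ M := fun hle => hne (h.centralizer_eq hy₀Z hle)
    obtain ⟨t, htx, htM⟩ := SetLike.not_le_iff_exists.1 hnle
    have h1 := h_i t htM
    have h2 : t * x ∉ M := fun hc => htM (by
      have := M.mul_mem hc (M.inv_mem hx)
      rwa [mul_inv_cancel_right] at this)
    have h3 := h_i (t * x) h2
    have hc : Commute t x := mem_cent_singleton.1 htx
    rw [hc.mul_pow] at h3
    have := (center P).mul_mem ((center P).inv_mem h1) h3
    rwa [inv_mul_cancel_left] at this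
  intro x
  by_cases hxM : x ∈ M
  · by_cases hCx : centralizer ({x} : Set P) = M
    · -- (iii)
      have hw1 : centralizer ({w} : Set P) ≠ M := by
        intro hc
        rw [← hc, mem_cent_singleton] at hw'
        exact hww hw'.symm
      have hxw' : w' * x = x * w' := by
        rw [← hCx, mem_cent_singleton] at hw'
        exact hw'
      have hxw : Commute x w := by
        rw [← hCx, mem_cent_singleton] at hw
        exact hw.symm
      have hw2 : centralizer ({x * w} : Set P) ≠ M := by
        intro hc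
        have h1 := hw'
        rw [← hc, mem_cent_singleton] at h1
        apply hww
        have h2 : x * (w' * w) = x * (w * w') := by
          calc x * (w' * w) = (x * w') * w := by group
            _ = (w' * x) * w := by rw [hxw']
            _ = w' * (x * w) := by group
            _ = (x * w) * w' := h1
            _ = x * (w * w') := by group
        exact (mul_left_cancel h2).symm
      have h1 := h_ii w hw hw1
      have h2 := h_ii (x * w) (M.mul_mem hxM hw) hw2
      rw [hxw.mul_pow] at h2
      have := (center P).mul_mem h2 ((center P).inv_mem h1)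
      rwa [mul_inv_cancel_right] at this
    · exact h_ii x hxM hCx
  · exact h_i x hxM

end Cfsg.Agent.Lib.Helper69
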