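import Cfsg.Agent.Lib.Helper68.RO.Defs
import Cfsg.Agent.Lib.Helper69.SubgroupSylow

set_option autoImplicit false

namespace Cfsg.Agent.Lib.Helper69.RO

open Cfsg Cfsg.Agent.Lib Cfsg.Agent.Lib.Helper15 Cfsg.Agent.Lib.Helper68.RO
open scoped ComplexConjugate

variable {G : Type*} [Group G] [Fintype G] (M : Subgroup G) [M.Normal] [Fintype M]

/-- PIECE B1b. -/
theorem lam_rel_of_under (P : Sylow 2 G) {X : Subgroup G}
    (hPX : (P : Subgroup G) ≤ X) (hMX : M ≤ X) {χ : X → ℂ} (hχ : IsIrrCharacter X χ)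
    (a b : Lam M (P : Subgroup G)) (ha : classInner (resFun hMX χ) (a.1 : M → ℂ) ≠ 0)
    (hb : classInner (resFun hMX χ) (b.1 : M → ℂ) ≠ 0) :
    (lamSetoid M (P : Subgroup G)).r a b := by
  classical
  have : Fact (Nat.Prime 2) := ⟨Nat.prime_two⟩
  have : Fintype X := Fintype.ofFinite X
  obtain ⟨k, hk⟩ := rel_clifford_conj hMX hχ a.1.2 b.1.2 ha hb
  have h1 : (P : Subgroup G) ≤ inertia M (a.1 : M → ℂ) := fun x hx => a.2.2.2 x hx
  have h2 : (((k : G) • P : Sylow 2 G) : Subgroup G) ≤ inertia M (a.1 : M → ℂ) := by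
    intro z hz
    have hz' : (k : G)⁻¹ * z * k ∈ P := (Cfsg.Agent.Lib.Helper69.mem_smul_sylow P k z).mp hz
    have h3 := b.2.2.2 _ hz'
    rw [hk, cj_cj] at h3
    rw [mem_inertia]
    have h4 := congrArg (cj M (k : G)⁻¹) h3
    rw [cj_cj, cj_cj] at h4
    have e1 : (k : G) * ((k : G)⁻¹ * z * k) * (k : G)⁻¹ = z := by group
    rw [e1, mul_inv_cancel, cj_one] at h4
    exact h4
  obtain ⟨c, hc, hcP⟩ := Cfsg.Agent.Lib.Helper69.exists_smul_eq_of_le _ P ((k : G) • P) h1 h2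
  rw [← mul_smul] at hcP
  refine ⟨c * k, Sylow.smul_eq_iff_mem_normalizer.mp hcP, ?_⟩
  rw [← cj_cj, (mem_inertia M _ c).mp hc]
  exact hk

end Cfsg.Agent.Lib.Helper69.RO
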