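import Mathlib

set_option autoImplicit false

namespace Cfsg.Agent.Lib.Helper69.RO

/-- PIECE B1d (pure counting). -/
theorem card_eq_sum_of_classes {R A : Type*} [Finite R] (s : Setoid A) [Fintype (Quotient s)]
    (ov : R → A → Prop) (h1 : ∀ x, ∃ a, ov x a) (h2 : ∀ x a b, ov x a → ov x b → s.r a b)
    (h3 : ∀ x a b, s.r a b → ov x a → ov x b) :
    Nat.card R = ∑ o : Quotient s, Nat.card {x : R // ov x (Quotient.out o)} := by
  classical
  let cls : R → Quotient s := fun x => Quotient.mk s (h1 x).choose
  rw [Nat.card_congr (Equiv.sigmaFiberEquiv cls).symm, Nat.card_sigma]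
  refine Finset.sum_congr rfl fun o _ => ?_
  refine Nat.card_congr (Equiv.subtypeEquivRight fun x => ?_)
  have hc : ov x (h1 x).choose := (h1 x).choose_spec
  constructor
  · intro hx
    have h4 : Quotient.mk s (h1 x).choose = Quotient.mk s (Quotient.out o) := by
      rw [Quotient.out_eq]; exact hx
    exact h3 x _ _ (Quotient.exact h4) hc
  · intro hx
    have h4 : s.r (h1 x).choose (Quotient.out o) := h2 x _ _ hc hx
    have h5 : Quotient.mk s (h1 x).choose = Quotient.mk s (Quotient.out o) := Quotient.sound h4
    rw [Quotient.out_eq] at h5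
    exact h5

end Cfsg.Agent.Lib.Helper69.RO
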