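import Mathlib
import Cfsg.Agent.Lib.Helper69.SubgroupSylow

set_option autoImplicit false

namespace Cfsg.Agent.Lib.Helper69.RO

open Cfsg.Agent.Lib.Helper69

/-- PIECE Q. -/
theorem exists_sylow_quot {X : Type*} [Group X] [Finite X] (L : Subgroup X) [L.Normal]
    (P : Sylow 2 X) :
    ∃ Q : Sylow 2 (X ⧸ L), Nonempty
      (Subgroup.normalizer ((Q : Subgroup (X ⧸ L)) : Set (X ⧸ L)) ≃*
        (Subgroup.normalizer ((P : Subgroup X) : Set X)) ⧸
          L.subgroupOf (Subgroup.normalizer ((P : Subgroup X) : Set X))) := by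
  have : Fact (Nat.Prime 2) := ⟨Nat.prime_two⟩
  set Q := P.mapSurjective (QuotientGroup.mk'_surjective L) with hQdef
  have hQ : (Q : Subgroup (X ⧸ L)) = (P : Subgroup X).map (QuotientGroup.mk' L) :=
    Sylow.coe_mapSurjective _ _
  refine ⟨Q, ?_⟩
  set N := Subgroup.normalizer ((P : Subgroup X) : Set X) with hN
  let f : N →* X ⧸ L := (QuotientGroup.mk' L).comp N.subtype
  have hker : f.ker = L.subgroupOf N := by
    ext n
    simp [f, Subgroup.mem_subgroupOf, MonoidHom.mem_ker]
  have hrange : f.range = Subgroup.normalizer ((Q : Subgroup (X ⧸ L)) : Set (X ⧸ L)) := by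
    apply le_antisymm
    · rintro _ ⟨n, rfl⟩
      apply mem_normalizer_of_conj_le
      intro w hw
      rw [hQ] at hw ⊢
      obtain ⟨p, hp, rfl⟩ := hw
      refine ⟨n * p * (n : X)⁻¹, (Subgroup.mem_normalizer_iff.mp n.2 p).mp hp, ?_⟩
      simp [f]
    · intro y hy
      obtain ⟨x, rfl⟩ := QuotientGroup.mk'_surjective L y
      have hle : ((x • P : Sylow 2 X) : Subgroup X) ≤ (P : Subgroup X) ⊔ L := by
        intro z hz
        have hz' : x⁻¹ * z * x ∈ P := (mem_smul_sylow P x z).mp hz
        have h1 : QuotientGroup.mk' L x * QuotientGroup.mk' L (x⁻¹ * z * x) *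
            (QuotientGroup.mk' L x)⁻¹ ∈ (Q : Subgroup (X ⧸ L)) := by
          refine (Subgroup.mem_normalizer_iff.mp hy _).mp ?_
          rw [hQ]
          exact ⟨_, hz', rfl⟩
        have h2 : QuotientGroup.mk' L x * QuotientGroup.mk' L (x⁻¹ * z * x) *
            (QuotientGroup.mk' L x)⁻¹ = QuotientGroup.mk' L z := by
          rw [← map_inv, ← map_mul, ← map_mul]
          congr 1
          group
        rw [h2, hQ] at h1
        obtain ⟨p', hp', hpz⟩ := h1
        have h3 : p'⁻¹ * z ∈ L := QuotientGroup.eq.mp hpz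
        have h4 : z = p' * (p'⁻¹ * z) := by group
        rw [h4]
        exact Subgroup.mul_mem_sup hp' h3
      obtain ⟨c, hc, hcP⟩ := exists_smul_eq_of_le ((P : Subgroup X) ⊔ L) P (x • P) le_sup_left hle
      rw [← mul_smul] at hcP
      have hcx : c * x ∈ N := Sylow.smul_eq_iff_mem_normalizer.mp hcP
      have hc' : c ∈ (((P : Subgroup X) ⊔ L : Subgroup X) : Set X) := hc
      rw [Subgroup.mul_normal] at hc'
      obtain ⟨p, hp, l, hl, rfl⟩ := hc'
      have hpN : p ∈ N := Subgroup.le_normalizer hp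
      have hlx : l * x ∈ N := by
        have := N.mul_mem (N.inv_mem hpN) hcx
        simpa [mul_assoc] using this
      refine ⟨⟨l * x, hlx⟩, ?_⟩
      show QuotientGroup.mk' L (l * x) = QuotientGroup.mk' L x
      have hl1 : QuotientGroup.mk' L l = 1 := (QuotientGroup.eq_one_iff l).mpr hl
      rw [map_mul, hl1, one_mul]
  exact ⟨(((QuotientGroup.quotientMulEquivOfEq hker).symm.trans
    (QuotientGroup.quotientKerEquivRange f)).trans (MulEquiv.subgroupCongr hrange)).symm⟩

end Cfsg.Agent.Lib.Helper69.RO
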