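import Mathlib

set_option autoImplicit false

namespace Cfsg.Agent.Lib.Helper69.RO

/-- a nontrivial solvable group has a nontrivial abelian normal subgroup -/
theorem exists_abelian_normal {G : Type*} [Group G] [Group.IsSolvable G] [Nontrivial G] :
    ∃ A : Subgroup G, A.Normal ∧ A ≠ ⊥ ∧ ∀ a ∈ A, ∀ b ∈ A, a * b = b * a := by
  classical
  have hs : ∃ n, derivedSeries G n = ⊥ := Group.IsSolvable.solvable
  have h0 : Nat.find hs ≠ 0 := by
    intro h0
    have h1 := Nat.find_spec hs
    rw [h0, derivedSeries_zero] at h1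
    exact top_ne_bot h1
  obtain ⟨n, hn⟩ := Nat.exists_eq_succ_of_ne_zero h0
  refine ⟨derivedSeries G n, derivedSeries_normal G n, ?_, ?_⟩
  · exact Nat.find_min hs (by omega)
  · have h1 := Nat.find_spec hs
    rw [hn, Nat.succ_eq_add_one, derivedSeries_succ,
      Subgroup.commutator_eq_bot_iff_le_centralizer] at h1
    intro a ha b hb
    exact ((Subgroup.mem_centralizer_iff.mp (h1 ha)) b hb).symm

/-- PIECE S0. -/
theorem exists_normal_odd_or_two {G : Type*} [Group G] [Finite G] [Group.IsSolvable G]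
    [Nontrivial G] :
    ∃ M : Subgroup G, M.Normal ∧ M ≠ ⊥ ∧ (Odd (Nat.card M) ∨ IsPGroup 2 M) := by
  obtain ⟨A, hAn, hA, hcomm⟩ := exists_abelian_normal (G := G)
  have hcard : Nat.card A ≠ 1 := fun h => hA (Subgroup.card_eq_one.mp h)
  obtain ⟨q, hq, hqA⟩ := Nat.exists_prime_and_dvd hcard
  have : Fact q.Prime := ⟨hq⟩
  obtain ⟨x, hx⟩ := exists_prime_orderOf_dvd_card' q hqA
  let M : Subgroup G :=
    { carrier := {a | a ∈ A ∧ a ^ q = 1}
      one_mem' := ⟨A.one_mem, one_pow _⟩
      mul_mem' := by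
        rintro a b ⟨ha, ha'⟩ ⟨hb, hb'⟩
        refine ⟨A.mul_mem ha hb, ?_⟩
        have : Commute a b := hcomm a ha b hb
        rw [this.mul_pow, ha', hb', one_mul]
      inv_mem' := by
        rintro a ⟨ha, ha'⟩
        exact ⟨A.inv_mem ha, by rw [inv_pow, ha', inv_one]⟩ }
  have hMn : M.Normal := by
    constructor
    rintro a ⟨ha, ha'⟩ g
    exact ⟨hAn.conj_mem a ha g, by rw [conj_pow, ha']; simp⟩
  have hMne : M ≠ ⊥ := by
    intro hM
    have hxM : (x : G) ∈ M := by
      refine ⟨x.2, ?_⟩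
      have := pow_orderOf_eq_one x
      rw [hx] at this
      exact_mod_cast congrArg Subtype.val this
    rw [hM, Subgroup.mem_bot] at hxM
    have hx1 : x = 1 := Subtype.ext hxM
    rw [hx1, orderOf_one] at hx
    exact hq.one_lt.ne hx
  have hMp : IsPGroup q M := by
    intro a
    refine ⟨1, ?_⟩
    rw [pow_one]
    exact Subtype.ext a.2.2
  refine ⟨M, hMn, hMne, ?_⟩
  rcases hq.eq_two_or_odd' with h2 | h2
  · right
    rw [← h2]; exact hMp
  · left
    obtain ⟨k, hk⟩ := IsPGroup.iff_card.mp hMp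
    rw [hk]
    exact h2.pow

end Cfsg.Agent.Lib.Helper69.RO
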