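import Mathlib
import Cfsg.Agent.Lib.Helper69.Ito2
import Cfsg.Agent.Lib.Helper69.Split2
import Cfsg.Agent.Lib.Helper69.Split4
import Cfsg.Agent.Lib.Helper69.Split5

/-!
# Normal subgroups with two `G`-class sizes, part 1: general lemmas
-/

set_option autoImplicit false

namespace Cfsg.Agent.Lib.Helper69

open Subgroup

variable {G : Type*} [Group G]

/-- the elements of `N` have `G`-class size `1` or `m` -/
def TwoOn (N : Subgroup G) (m : ℕ) : Prop :=
  ∀ x ∈ N, (centralizer ({x} : Set G)).index = 1 ∨ (centralizer ({x} : Set G)).index = m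

variable {N : Subgroup G} {m : ℕ}

theorem TwoOn.index_eq (h : TwoOn N m) {x : G} (hxN : x ∈ N) (hx : x ∉ center G) :
    (centralizer ({x} : Set G)).index = m := by
  rcases h x hxN with h1 | h1
  · exact absurd ((index_centralizer_eq_one_iff x).1 h1) hx
  · exact h1

theorem TwoOn.centralizer_eq [Finite G] (h : TwoOn N m) {x y : G} (hxN : x ∈ N) (hyN : y ∈ N)
    (hy : y ∉ center G)
    (hle : centralizer ({x} : Set G) ≤ centralizer ({y} : Set G)) :
    centralizer ({x} : Set G) = centralizer ({y} : Set G) := by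
  have hx : x ∉ center G := by
    intro hx
    apply hy
    rw [← index_centralizer_eq_one_iff, index_eq_one] at hx ⊢
    rw [eq_top_iff, ← hx]; exact hle
  exact eq_of_le_of_index_eq hle ((h.index_eq hxN hx).trans (h.index_eq hyN hy).symm)

theorem TwoOn.centralizer_le_of_coprime [Finite G] (h : TwoOn N m) {a v : G}
    (haN : a ∈ N) (hvN : v ∈ N)
    (ha : a ∉ center G) (hc : Commute a v) (hcop : (orderOf a).Coprime (orderOf v)) :
    centralizer ({a} : Set G) ≤ centralizer ({v} : Set G) := by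
  have h1 := centralizer_mul_of_coprime hc hcop
  have h3 : centralizer ({a * v} : Set G) = centralizer ({a} : Set G) :=
    h.centralizer_eq (N.mul_mem haN hvN) haN ha (h1 ▸ inf_le_left)
  rw [← h3, h1]; exact inf_le_right

theorem TwoOn.cq_eq [Finite G] (h : TwoOn N m) {x y : G} (hxN : x ∈ N) (hyN : y ∈ N)
    (hx : x ∉ center G) (hy : y ∉ center G) : cq x = cq y := by
  have h1 := (centralizer ({x} : Set G)).card_mul_index
  have h2 := (centralizer ({y} : Set G)).card_mul_index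
  rw [h.index_eq hxN hx, card_centralizer_eq] at h1
  rw [h.index_eq hyN hy, card_centralizer_eq] at h2
  have hn : 0 < m := by
    rw [← h.index_eq hxN hx]; exact Nat.pos_of_ne_zero index_ne_zero_of_finite
  have hz : 0 < Nat.card (center G) := Nat.card_pos
  have h3 : Nat.card (center G) * cq x * m = Nat.card (center G) * cq y * m := h1.trans h2.symm
  exact Nat.eq_of_mul_eq_mul_left hz (Nat.eq_of_mul_eq_mul_right hn h3)

/-- a `p`-group `S` normalizing a non-central subgroup `K ≤ S` centralizes, modulo the centre of `G`,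
some non-central element of `K` -/
theorem exists_second_center_rel [Finite G] {p : ℕ} [Fact p.Prime] (S K : Subgroup G)
    (hS : IsPGroup p S) (hKS : K ≤ S) (hnorm : ∀ g ∈ S, ∀ k ∈ K, g * k * g⁻¹ ∈ K)
    (hK : ¬ K ≤ center G) :
    ∃ z ∈ K, z ∉ center G ∧ ∀ g ∈ S, g * z * g⁻¹ * z⁻¹ ∈ center G := by
  set f := QuotientGroup.mk' (center G) with hf
  have hinv : ∀ g ∈ S.map f, ∀ w ∈ ((K.map f : Subgroup (G ⧸ center G)) : Set (G ⧸ center G)),
      g * w * g⁻¹ ∈ ((K.map f : Subgroup (G ⧸ center G)) : Set (G ⧸ center G)) := by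
    rintro _ ⟨g, hg, rfl⟩ _ ⟨k, hk, rfl⟩
    exact ⟨g * k * g⁻¹, hnorm g hg k hk, by simp⟩
  let _ := conjActionOn (S.map f) ((K.map f : Subgroup (G ⧸ center G)) : Set (G ⧸ center G)) hinv
  have hSp : IsPGroup p (S.map f) := hS.map f
  have hKp : IsPGroup p (K.map f) := (hS.to_le hKS).map f
  have hdvd : p ∣ Nat.card ((K.map f : Subgroup (G ⧸ center G)) : Set (G ⧸ center G)) := by
    rcases hKp.card_eq_or_dvd with h1 | h1
    · exfalso
      apply hK
      intro k hk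
      have h2 : K.map f = ⊥ := (Subgroup.card_eq_one).1 h1
      have h3 : f k ∈ K.map f := ⟨k, hk, rfl⟩
      rw [h2, mem_bot] at h3
      exact (QuotientGroup.eq_one_iff k).1 h3
    · exact h1
  have hfix : (⟨1, (K.map f).one_mem⟩ : ((K.map f : Subgroup (G ⧸ center G)) : Set (G ⧸ center G))) ∈
      MulAction.fixedPoints (S.map f) ((K.map f : Subgroup (G ⧸ center G)) : Set (G ⧸ center G)) := by
    intro g
    apply Subtype.ext
    show (g : G ⧸ center G) * 1 * (g : G ⧸ center G)⁻¹ = 1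
    simp
  obtain ⟨⟨b, hb⟩, hbfix, hb1⟩ :=
    hSp.exists_fixed_point_of_prime_dvd_card_of_fixed_point _ hdvd hfix
  obtain ⟨z, hz, rfl⟩ := hb
  refine ⟨z, hz, ?_, ?_⟩
  · intro hzc
    apply hb1
    apply Subtype.ext
    exact ((QuotientGroup.eq_one_iff z).2 hzc).symm
  · intro g hg
    have h1 := hbfix ⟨f g, g, hg, rfl⟩
    have h2 : f g * f z * (f g)⁻¹ = f z := congrArg Subtype.val h1
    rw [← QuotientGroup.eq_one_iff]
    show f (g * z * g⁻¹ * z⁻¹) = 1
    rw [map_mul, map_mul, map_mul, map_inv, map_inv, h2, mul_inv_cancel]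

/-- elements of `p`-power order lie in every normal subgroup containing a Sylow `p`-subgroup -/
theorem mem_of_sylow_le_normal [Finite G] {p : ℕ} [Fact p.Prime] (P : Sylow p G) (N : Subgroup G)
    [hN : N.Normal] (hPN : (P : Subgroup G) ≤ N) {x : G} (hx : ∃ k : ℕ, x ^ (p ^ k) = 1) : x ∈ N := by
  obtain ⟨c, -, hc⟩ := exists_conj_mem_sylow_of_le ⊤ P le_top x (mem_top x) hx
  have h1 := hN.conj_mem _ (hPN hc) c⁻¹
  have e : c⁻¹ * (c * x * c⁻¹) * c⁻¹⁻¹ = x := by group
  rwa [e] at h1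

/-- an element that has both `p`-power and `q`-power order is trivial -/
theorem eq_one_of_pow_pow {p q : ℕ} (hp : p.Prime) (hq : q.Prime) (hpq : p ≠ q) {x : G}
    (h1 : ∃ k : ℕ, x ^ (p ^ k) = 1) (h2 : ∃ k : ℕ, x ^ (q ^ k) = 1) : x = 1 := by
  have h3 := coprime_orderOf_of_pow hp hq hpq h1 h2
  rw [Nat.coprime_self] at h3
  exact orderOf_eq_one_iff.1 h3

theorem not_dvd_orderOf_of_pow {p q : ℕ} (hp : p.Prime) (hq : q.Prime) (hpq : p ≠ q) {x : G}
    (h1 : ∃ k : ℕ, x ^ (p ^ k) = 1) : ¬ q ∣ orderOf x := by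
  obtain ⟨k, hk⟩ := h1
  intro h
  have h2 : q ∣ p ^ k := h.trans (orderOf_dvd_of_pow_eq_one hk)
  exact hpq ((Nat.prime_dvd_prime_iff_eq hq hp).1 (hq.dvd_of_dvd_pow h2)).symm

theorem pow_mul_of_commute {p : ℕ} {a b : G} (hc : Commute a b) (ha : ∃ k : ℕ, a ^ (p ^ k) = 1)
    (hb : ∃ k : ℕ, b ^ (p ^ k) = 1) : ∃ k : ℕ, (a * b) ^ (p ^ k) = 1 := by
  obtain ⟨k, hk⟩ := ha
  obtain ⟨l, hl⟩ := hb
  refine ⟨k + l, ?_⟩
  rw [hc.mul_pow, pow_add, pow_mul, hk, one_pow, mul_comm (p ^ k), pow_mul, hl, one_pow, one_mul]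

theorem pow_conj {p : ℕ} {a : G} (g : G) (ha : ∃ k : ℕ, a ^ (p ^ k) = 1) :
    ∃ k : ℕ, (g * a * g⁻¹) ^ (p ^ k) = 1 := by
  obtain ⟨k, hk⟩ := ha
  exact ⟨k, by rw [conj_pow, hk]; group⟩

theorem pow_inv' {p : ℕ} {a : G} (ha : ∃ k : ℕ, a ^ (p ^ k) = 1) :
    ∃ k : ℕ, (a⁻¹) ^ (p ^ k) = 1 := by
  obtain ⟨k, hk⟩ := ha
  exact ⟨k, by rw [inv_pow, hk, inv_one]⟩

end Cfsg.Agent.Lib.Helper69
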