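import Mathlib
import Cfsg.Agent.Lib.Helper69.RelIto1

/-!
# Normal subgroups with two `G`-class sizes, part 2: mixed centralizers and the counting argument
-/

set_option autoImplicit false

namespace Cfsg.Agent.Lib.Helper69

open Subgroup

variable {G : Type*} [Group G]

/-- the standing hypotheses: `N ⊴ G` has `G`-class sizes `1`, `m`, contains all `r`-elements of `G`,
and some `r`-element is not central -/
structure RCtx (r : ℕ) (N : Subgroup G) (m : ℕ) : Prop where
  two : TwoOn N m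
  normal : N.Normal
  rmem : ∀ x : G, (∃ k : ℕ, x ^ (r ^ k) = 1) → x ∈ N
  exr : ∃ t : G, t ∉ center G ∧ ∃ k : ℕ, t ^ (r ^ k) = 1

/-- non-central `r'`-elements of `N` -/
def Good (r : ℕ) (N : Subgroup G) (y : G) : Prop := y ∈ N ∧ y ∉ center G ∧ ¬ r ∣ orderOf y

variable {r : ℕ} {N : Subgroup G} {m : ℕ}

theorem RCtx.exists_r [Finite G] [Fact r.Prime] (h : RCtx r N m) {y : G} (hy : Good r N y) :
    ∃ t ∈ centralizer ({y} : Set G), t ∉ center G ∧ ∃ k : ℕ, t ^ (r ^ k) = 1 := by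
  obtain ⟨t₀, ht₀, htr⟩ := h.exr
  apply exists_noncentral_pElement
  rw [← h.two.cq_eq (h.rmem t₀ htr) hy.1 ht₀ hy.2.1]
  exact dvd_cq_of_pElement Fact.out ht₀ htr

theorem RCtx.le_centralizer [Finite G] [Fact r.Prime] (h : RCtx r N m) {y : G} (hy : Good r N y)
    {v : G} (hv : v ∈ centralizer ({y} : Set G)) (hvN : v ∈ N) :
    centralizer ({y} : Set G) ≤ centralizer ({v} : Set G) := by
  have hr : r.Prime := Fact.out
  obtain ⟨t, ht, htZ, htr⟩ := h.exists_r hy
  have htN : t ∈ N := h.rmem t htr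
  have hct : Commute y t := (mem_cent_singleton.1 ht).symm
  have hcop : (orderOf t).Coprime (orderOf y) := coprime_orderOf_of_not_dvd hr htr hy.2.2
  have h1 : centralizer ({y} : Set G) = centralizer ({t} : Set G) :=
    h.two.centralizer_eq hy.1 htN htZ (h.two.centralizer_le_of_coprime hy.1 htN hy.2.1 hct hcop.symm)
  obtain ⟨i, j, hij, hi, hj⟩ := exists_p_decomp r v
  have hcv : Commute y v := (mem_cent_singleton.1 hv).symm
  have hcv' : Commute t v := by
    rw [h1] at hv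
    exact (mem_cent_singleton.1 hv).symm
  have h2 : centralizer ({y} : Set G) ≤ centralizer ({v ^ i} : Set G) :=
    h.two.centralizer_le_of_coprime hy.1 (N.pow_mem hvN i) hy.2.1 (hcv.pow_right i)
      (coprime_orderOf_of_not_dvd hr hi hy.2.2).symm
  have h3 : centralizer ({y} : Set G) ≤ centralizer ({v ^ j} : Set G) := by
    rw [h1]
    exact h.two.centralizer_le_of_coprime htN (N.pow_mem hvN j) htZ (hcv'.pow_right j)
      (coprime_orderOf_of_not_dvd hr htr hj)
  intro g hg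
  have h4 := mem_cent_singleton.1 (h2 hg)
  have h5 := mem_cent_singleton.1 (h3 hg)
  rw [mem_cent_singleton, ← hij, ← mul_assoc, h4, mul_assoc, h5, mul_assoc]

theorem RCtx.centralizer_eq [Finite G] [Fact r.Prime] (h : RCtx r N m) {y : G} (hy : Good r N y)
    {v : G} (hv : v ∈ centralizer ({y} : Set G)) (hvN : v ∈ N) (hvZ : v ∉ center G) :
    centralizer ({v} : Set G) = centralizer ({y} : Set G) :=
  (h.two.centralizer_eq hy.1 hvN hvZ (h.le_centralizer hy hv hvN)).symm

theorem RCtx.commute [Finite G] [Fact r.Prime] (h : RCtx r N m) {y : G} (hy : Good r N y)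
    {v w : G} (hv : v ∈ centralizer ({y} : Set G)) (hvN : v ∈ N)
    (hw : w ∈ centralizer ({y} : Set G)) : v * w = w * v :=
  (mem_cent_singleton.1 (h.le_centralizer hy hv hvN hw)).symm

theorem RCtx.m_pos [Finite G] (h : RCtx r N m) : 0 < m := by
  obtain ⟨t₀, ht₀, htr⟩ := h.exr
  rw [← h.two.index_eq (h.rmem t₀ htr) ht₀]
  exact Nat.pos_of_ne_zero index_ne_zero_of_finite

theorem cq_ne_zero [Finite G] (x : G) : cq x ≠ 0 := by
  intro h0
  have := card_centralizer_eq x
  rw [h0, mul_zero] at this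
  exact Nat.card_pos.ne' this

/-- the `r`-part of `C(y)/Z(G)` is non-trivial -/
theorem RCtx.one_lt_ordProj [Finite G] [Fact r.Prime] (h : RCtx r N m) {y : G} (hyN : y ∈ N)
    (hyZ : y ∉ center G) : 1 < ordProj[r] (cq y) := by
  have hr : r.Prime := Fact.out
  obtain ⟨t₀, ht₀, htr⟩ := h.exr
  have h1 : r ∣ cq y := by
    rw [← h.two.cq_eq (h.rmem t₀ htr) hyN ht₀ hyZ]
    exact dvd_cq_of_pElement hr ht₀ htr
  have h2 : r ∣ ordProj[r] (cq y) := Nat.dvd_ordProj_of_dvd (cq_ne_zero y) hr h1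
  exact lt_of_lt_of_le hr.one_lt (Nat.le_of_dvd (Nat.ordProj_pos _ _) h2)

/-- key divisibility: a `q`-group `S` normalizing `C(z)` acts semiregularly on the non-central
`r`-elements of `C(z)` -/
theorem RCtx.relIndex_dvd [Finite G] [Fact r.Prime] (h : RCtx r N m) {q : ℕ} [Fact q.Prime]
    (hqr : q ≠ r) (S : Subgroup G) (hS : IsPGroup q S) {z : G} (hz : Good r N z)
    (hzn : ∀ g ∈ S, g * z * g⁻¹ * z⁻¹ ∈ center G) :
    (centralizer ({z} : Set G)).relIndex S ∣ ordProj[r] (cq z) - 1 := by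
  have hr : r.Prime := Fact.out
  have hq : q.Prime := Fact.out
  set C := centralizer ({z} : Set G) with hC
  set A : Set G := {x | x ∈ C ∧ ∃ k : ℕ, x ^ (r ^ k) = 1} with hA
  set B : Set G := {x | x ∈ center G ∧ ∃ k : ℕ, x ^ (r ^ k) = 1} with hB
  have hBA : B ⊆ A := fun x hx => ⟨center_le_centralizer_singleton z hx.1, hx.2⟩
  have hle : ∀ x ∈ A, C ≤ centralizer ({x} : Set G) := fun x hx =>
    h.le_centralizer hz hx.1 (h.rmem x hx.2)
  have hWc : ∀ w ∈ A \ B, w ∉ center G := fun w hw hc => hw.2 ⟨hc, hw.1.2⟩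
  have hWC : ∀ w ∈ A \ B, centralizer ({w} : Set G) = C := fun w hw =>
    h.centralizer_eq hz hw.1.1 (h.rmem w hw.1.2) (hWc w hw)
  have hinv : ∀ g ∈ S, ∀ w ∈ A \ B, g * w * g⁻¹ ∈ A \ B := by
    intro g hg w hw
    refine ⟨⟨?_, pow_conj g hw.1.2⟩, ?_⟩
    · rw [hC, mem_cent_singleton]
      obtain ⟨ζ, hζc, e⟩ : ∃ ζ ∈ center G, g⁻¹ * z * g = ζ * z :=
        ⟨_, hzn g⁻¹ (inv_mem hg), by group⟩
      have hwz : w * z = z * w := mem_cent_singleton.1 hw.1.1
      have hcomm : w * (ζ * z) = (ζ * z) * w := by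
        calc w * (ζ * z) = (w * ζ) * z := by group
          _ = (ζ * w) * z := by rw [(mem_center_iff.1 hζc) w]
          _ = ζ * (w * z) := by group
          _ = ζ * (z * w) := by rw [hwz]
          _ = (ζ * z) * w := by group
      calc (g * w * g⁻¹) * z = g * (w * (g⁻¹ * z * g)) * g⁻¹ := by group
        _ = g * ((g⁻¹ * z * g) * w) * g⁻¹ := by rw [e, hcomm]
        _ = z * (g * w * g⁻¹) := by group
    · intro hb
      exact not_mem_center_conj (hWc w hw) g hb.1
  set d := C.relIndex S with hd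
  have hdvd : d ∣ Nat.card ↥(A \ B) :=
    dvd_card_of_relIndex_centralizer S (A \ B) hinv d (fun w hw => by rw [hWC w hw])
  have hAcard : A.ncard = ordProj[r] (Nat.card C) := by
    rw [← Nat.card_coe_set_eq]
    exact card_pElements r C (fun x hx hxt y hy =>
      (mem_cent_singleton.1 (hle x ⟨hx, hxt⟩ hy)).symm)
  have hBcard : B.ncard = ordProj[r] (Nat.card (center G)) := by
    rw [← Nat.card_coe_set_eq]
    exact card_pElements r (center G) (fun x hx _ y _ => ((mem_center_iff.1 hx) y).symm)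
  rw [Nat.card_coe_set_eq, Set.ncard_sdiff hBA (Set.toFinite _), hAcard, hBcard, hC,
    card_centralizer_eq] at hdvd
  have hz0 : Nat.card (center G) ≠ 0 := Nat.card_pos.ne'
  rw [Nat.ordProj_mul _ hz0 (cq_ne_zero z)] at hdvd
  have e1 : ordProj[r] (Nat.card (center G)) * ordProj[r] (cq z) - ordProj[r] (Nat.card (center G)) =
      ordProj[r] (Nat.card (center G)) * (ordProj[r] (cq z) - 1) := by
    rw [Nat.mul_sub, mul_one]
  rw [e1] at hdvd
  have hdS : d ∣ Nat.card S := relIndex_dvd_card _ _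
  have hcop : d.Coprime (ordProj[r] (Nat.card (center G))) := by
    obtain ⟨n, hn⟩ := IsPGroup.iff_card.1 hS
    rw [hn] at hdS
    exact Nat.Coprime.of_dvd_left hdS (Nat.Coprime.pow _ _ ((Nat.coprime_primes hq hr).2 hqr))
  exact hcop.dvd_of_dvd_mul_left hdvd

/-- (F3) -/
theorem RCtx.ordProj_dvd [Finite G] [Fact r.Prime] (h : RCtx r N m) {q : ℕ} [Fact q.Prime]
    (hqr : q ≠ r) {x₀ : G} (hx₀N : x₀ ∈ N) (hx₀ : x₀ ∉ center G)
    {w : G} (hwN : w ∈ N) (hwZ : w ∉ center G) (hwq : ∃ k : ℕ, w ^ (q ^ k) = 1) :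
    ordProj[q] m ∣ ordProj[r] (cq x₀) - 1 := by
  have hr : r.Prime := Fact.out
  have hq : q.Prime := Fact.out
  have hNn := h.normal
  obtain ⟨k, hk⟩ := hwq
  have hzp : IsPGroup q (zpowers w) := by
    apply IsPGroup.of_card_dvd_pow (n := k)
    rw [Nat.card_zpowers]
    exact orderOf_dvd_of_pow_eq_one hk
  obtain ⟨S, hS⟩ := hzp.exists_le_sylow
  have hwS : w ∈ S := hS (mem_zpowers w)
  obtain ⟨z, hzK, hzZ, hzn⟩ := exists_second_center_rel (S : Subgroup G) ((S : Subgroup G) ⊓ N) S.2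
    inf_le_left (fun g hg k hk => ⟨(S : Subgroup G).mul_mem ((S : Subgroup G).mul_mem hg hk.1)
      ((S : Subgroup G).inv_mem hg), hNn.conj_mem k hk.2 g⟩)
    (fun hle => hwZ (hle ⟨hwS, hwN⟩))
  have hzq : ∃ k : ℕ, z ^ (q ^ k) = 1 := by
    obtain ⟨k, hk⟩ := S.2 ⟨z, hzK.1⟩
    exact ⟨k, by simpa using congrArg Subtype.val hk⟩
  have hzG : Good r N z := ⟨hzK.2, hzZ, not_dvd_orderOf_of_pow hq hr hqr hzq⟩
  rw [h.two.cq_eq hx₀N hzK.2 hx₀ hzZ]
  refine dvd_trans ?_ (h.relIndex_dvd hqr (S : Subgroup G) S.2 hzG hzn)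
  set C := centralizer ({z} : Set G) with hC
  have e2 : (C ⊓ (S : Subgroup G)).relIndex (S : Subgroup G) * (S : Subgroup G).index =
      (C ⊓ (S : Subgroup G)).index := relIndex_mul_index inf_le_right
  have e3 : (C ⊓ (S : Subgroup G)).relIndex C * C.index = (C ⊓ (S : Subgroup G)).index :=
    relIndex_mul_index inf_le_left
  rw [inf_relIndex_right] at e2
  have hCn : C.index = m := h.two.index_eq hzK.2 hzZ
  have h4 : m ∣ C.relIndex (S : Subgroup G) * (S : Subgroup G).index := by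
    rw [e2, ← e3, hCn]; exact dvd_mul_left _ _
  have h5 : (ordProj[q] m).Coprime (S : Subgroup G).index :=
    Nat.Coprime.pow_left _ ((Nat.Prime.coprime_iff_not_dvd hq).2 S.not_dvd_index)
  exact h5.dvd_of_dvd_mul_right ((Nat.ordProj_dvd m q).trans h4)

end Cfsg.Agent.Lib.Helper69
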