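import Mathlib
import Cfsg.Agent.Lib.Helper69.RelIto2

/-!
# Normal subgroups with two `G`-class sizes, part 3: every Sylow `r`-subgroup meets every mixed
centralizer outside the centre
-/

set_option autoImplicit false

namespace Cfsg.Agent.Lib.Helper69

open Subgroup

variable {G : Type*} [Group G] {r : ℕ} {N : Subgroup G} {m : ℕ}

/-- if `q` divides `|N : C_N(y)|` then `N` has a non-central `q`-element -/
theorem exists_noncentral_of_dvd_relIndex [Finite G] {q : ℕ} [Fact q.Prime] (N : Subgroup G) (y : G)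
    (hq : q ∣ (centralizer ({y} : Set G)).relIndex N) :
    ∃ w ∈ N, w ∉ center G ∧ ∃ k : ℕ, w ^ (q ^ k) = 1 := by
  by_contra hcon
  push Not at hcon
  obtain ⟨Q⟩ : Nonempty (Sylow q N) := inferInstance
  have hle : (Q : Subgroup N) ≤ (centralizer ({y} : Set G)).subgroupOf N := by
    intro x hx
    rw [mem_subgroupOf]
    apply center_le_centralizer_singleton y
    by_contra hxc
    obtain ⟨k, hk⟩ := Q.2 ⟨x, hx⟩
    have hk' : (x : G) ^ (q ^ k) = 1 := by
      have := congrArg (fun v : (Q : Subgroup N) => ((v : N) : G)) hk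
      simpa using this
    exact hcon x x.2 hxc k hk'
  exact Q.not_dvd_index (hq.trans (index_dvd_of_le hle))

/-- (B4) -/
theorem RCtx.ordCompl_dvd [Finite G] [Fact r.Prime] (h : RCtx r N m) {y : G} (hyN : y ∈ N)
    (hyZ : y ∉ center G) :
    ordCompl[r] ((centralizer ({y} : Set G)).relIndex N) ∣ ordProj[r] (cq y) - 1 := by
  have hr : r.Prime := Fact.out
  have hNn := h.normal
  set n := (centralizer ({y} : Set G)).relIndex N with hn
  have hnm : n ∣ m := by
    rw [← h.two.index_eq hyN hyZ]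
    exact relIndex_dvd_index_of_normal_right _ N
  have hm0 : m ≠ 0 := h.m_pos.ne'
  have hn0 : n ≠ 0 := fun h0 => hm0 (Nat.eq_zero_of_zero_dvd (h0 ▸ hnm))
  rw [Nat.dvd_iff_prime_pow_dvd_dvd]
  intro q k hq hqk
  rcases Nat.eq_zero_or_pos k with rfl | hk
  · simp
  have : Fact q.Prime := ⟨hq⟩
  have hqc : q ∣ ordCompl[r] n := (dvd_pow_self q hk.ne').trans hqk
  have hqn : q ∣ n := hqc.trans (Nat.ordCompl_dvd n r)
  have hqr : q ≠ r := by
    rintro rfl
    exact Nat.not_dvd_ordCompl hr hn0 hqc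
  obtain ⟨w, hwN, hwZ, hwq⟩ := exists_noncentral_of_dvd_relIndex N y hqn
  have h1 : q ^ k ∣ m := (hqk.trans (Nat.ordCompl_dvd n r)).trans hnm
  have h2 : q ^ k ∣ ordProj[q] m :=
    pow_dvd_pow q ((Nat.Prime.pow_dvd_iff_le_factorization hq hm0).1 h1)
  exact h2.trans (h.ordProj_dvd hqr hyN hyZ hwN hwZ hwq)

theorem index_center_eq [Finite G] (h : TwoOn N m) {y : G} (hyN : y ∈ N) (hyZ : y ∉ center G) :
    (center G).index = cq y * m := by
  have h2 := (center G).card_mul_index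
  have h3 := (centralizer ({y} : Set G)).card_mul_index
  rw [h.index_eq hyN hyZ, card_centralizer_eq, ← h2, mul_assoc] at h3
  exact (Nat.eq_of_mul_eq_mul_left Nat.card_pos h3).symm

/-- (B5) -/
theorem RCtx.exists_mem_sylow [Finite G] [Fact r.Prime] (h : RCtx r N m) {y : G} (hyN : y ∈ N)
    (hyZ : y ∉ center G) (Q : Sylow r G) :
    ∃ t ∈ Q, t ∈ centralizer ({y} : Set G) ∧ t ∉ center G := by
  have hr : r.Prime := Fact.out
  have hNn := h.normal
  by_contra hcon
  push Not at hcon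
  set C := centralizer ({y} : Set G) with hC
  have hQN : (Q : Subgroup G) ≤ N := by
    intro x hx
    apply h.rmem
    obtain ⟨k, hk⟩ := Q.2 ⟨x, hx⟩
    exact ⟨k, by simpa using congrArg Subtype.val hk⟩
  have hle : C ⊓ (Q : Subgroup G) ≤ center G := fun t ht => hcon t ht.2 ht.1
  have e2 : (C ⊓ (Q : Subgroup G)).relIndex (Q : Subgroup G) * (Q : Subgroup G).index =
      (C ⊓ (Q : Subgroup G)).index := relIndex_mul_index inf_le_right
  rw [inf_relIndex_right] at e2
  have h1 : cq y * m ∣ C.relIndex (Q : Subgroup G) * (Q : Subgroup G).index := by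
    rw [e2, ← index_center_eq h.two hyN hyZ]
    exact index_dvd_of_le hle
  have hm0 : m ≠ 0 := h.m_pos.ne'
  have h2 : (ordProj[r] (cq y * m)).Coprime (Q : Subgroup G).index :=
    Nat.Coprime.pow_left _ ((Nat.Prime.coprime_iff_not_dvd hr).2 Q.not_dvd_index)
  have h3 : ordProj[r] (cq y * m) ∣ C.relIndex (Q : Subgroup G) :=
    h2.dvd_of_dvd_mul_right ((Nat.ordProj_dvd _ r).trans h1)
  rw [Nat.ordProj_mul _ (cq_ne_zero y) hm0] at h3
  have hd0 : C.relIndex (Q : Subgroup G) ≠ 0 := by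
    rw [relIndex]; exact index_ne_zero_of_finite
  have hn0 : C.relIndex N ≠ 0 := by
    rw [relIndex]; exact index_ne_zero_of_finite
  have h4 : ordProj[r] (cq y) * ordProj[r] m ≤ C.relIndex (Q : Subgroup G) :=
    Nat.le_of_dvd (Nat.pos_of_ne_zero hd0) h3
  have h5 : C.relIndex (Q : Subgroup G) ≤ C.relIndex N := relIndex_le_of_le_right hQN hn0
  have hnm : C.relIndex N ∣ m := by
    rw [← h.two.index_eq hyN hyZ]
    exact relIndex_dvd_index_of_normal_right _ N
  have h6 : ordProj[r] (C.relIndex N) ≤ ordProj[r] m :=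
    Nat.le_of_dvd (Nat.ordProj_pos _ _) (Nat.ordProj_dvd_ordProj_of_dvd hm0 hnm r)
  have h7 := h.one_lt_ordProj hyN hyZ
  have h8 : ordCompl[r] (C.relIndex N) ≤ ordProj[r] (cq y) - 1 :=
    Nat.le_of_dvd (by omega) (h.ordCompl_dvd hyN hyZ)
  have h9 : ordProj[r] (C.relIndex N) * ordCompl[r] (C.relIndex N) = C.relIndex N :=
    Nat.ordProj_mul_ordCompl_eq_self _ r
  have h10 : C.relIndex N ≤ ordProj[r] m * (ordProj[r] (cq y) - 1) := by
    rw [← h9]; exact Nat.mul_le_mul h6 h8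
  have h11 : 0 < ordProj[r] m := Nat.ordProj_pos _ _
  have h12 : ordProj[r] m * (ordProj[r] (cq y) - 1) < ordProj[r] m * ordProj[r] (cq y) :=
    Nat.mul_lt_mul_of_pos_left (by omega) h11
  rw [mul_comm] at h4
  omega

/-- (B6): conjugates of an element `u` of the "second centre" of a Sylow `r`-subgroup normalize all
centralizers of non-central elements `y` of `N` whose centralizer is "mixed" -/
theorem RCtx.conj_normalizes [Finite G] [Fact r.Prime] (h : RCtx r N m) {y : G} (hy : Good r N y)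
    (R : Sylow r G) {u : G} (hun : ∀ a ∈ R, a * u * a⁻¹ * u⁻¹ ∈ center G) (g : G) :
    (centralizer ({y} : Set G)).map (MulAut.conj (g * u * g⁻¹)).toMonoidHom =
      centralizer ({y} : Set G) := by
  obtain ⟨t, htQ, htC, htZ⟩ := h.exists_mem_sylow hy.1 hy.2.1 (g • R)
  rw [mem_smul_sylow] at htQ
  have htr : ∃ k : ℕ, t ^ (r ^ k) = 1 := by
    obtain ⟨k, hk⟩ := R.2 ⟨_, htQ⟩
    have hk' : (g⁻¹ * t * g) ^ (r ^ k) = 1 := by simpa using congrArg Subtype.val hk
    refine ⟨k, ?_⟩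
    have e : t = g * (g⁻¹ * t * g) * g⁻¹ := by group
    rw [e, conj_pow, hk']; group
  have htN : t ∈ N := h.rmem t htr
  have hCt : centralizer ({t} : Set G) = centralizer ({y} : Set G) := h.centralizer_eq hy htC htN htZ
  set a := g⁻¹ * t * g with ha
  set ζ := a * u * a⁻¹ * u⁻¹ with hζ
  have hζc : ζ ∈ center G := hun a htQ
  have hζi : ζ⁻¹ ∈ center G := (center G).inv_mem hζc
  -- `u a u⁻¹ = ζ⁻¹ a`
  have e1 : u * a * u⁻¹ = ζ⁻¹ * a := by rw [hζ]; group
  have e2 : (g * u * g⁻¹) * t * (g * u * g⁻¹)⁻¹ = t * ζ⁻¹ := by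
    have e3 : (g * u * g⁻¹) * t * (g * u * g⁻¹)⁻¹ = g * (u * a * u⁻¹) * g⁻¹ := by rw [ha]; group
    have e4 : g * (ζ⁻¹ * a) * g⁻¹ = (g * a * g⁻¹) * ζ⁻¹ := by
      calc g * (ζ⁻¹ * a) * g⁻¹ = g * (a * ζ⁻¹) * g⁻¹ := by rw [(mem_center_iff.1 hζi) a]
        _ = g * a * (ζ⁻¹ * g⁻¹) := by group
        _ = g * a * (g⁻¹ * ζ⁻¹) := by rw [(mem_center_iff.1 hζi) g⁻¹]
        _ = (g * a * g⁻¹) * ζ⁻¹ := by group
    have e5 : g * a * g⁻¹ = t := by rw [ha]; group
    rw [e3, e1, e4, e5]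
  rw [← hCt, ← centralizer_conj, e2]
  exact centralizer_mul_central hζi

end Cfsg.Agent.Lib.Helper69
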