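import Mathlib
import Cfsg.Agent.Lib.Helper69.RelIto3

/-!
# Normal subgroups with two `G`-class sizes, part 4: a mixed centralizer is never normal
-/

set_option autoImplicit false

namespace Cfsg.Agent.Lib.Helper69

open Subgroup

variable {G : Type*} [Group G] {r : ℕ} {N : Subgroup G} {m : ℕ}

/-- (P') -/
theorem RCtx.false_of_normal [Finite G] [Fact r.Prime] (h : RCtx r N m) {s : ℕ} [Fact s.Prime]
    (hsr : s ≠ r) (R : Sylow r G) (hrm : r ∣ m) {y : G} (hy : Good r N y)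
    (hys : ∃ k : ℕ, y ^ (s ^ k) = 1) (hCn : (centralizer ({y} : Set G)).Normal) : False := by
  have hr : r.Prime := Fact.out
  have hs : s.Prime := Fact.out
  have hNn := h.normal
  have hm0 : m ≠ 0 := h.m_pos.ne'
  set C := centralizer ({y} : Set G) with hC
  set A := C ⊓ N with hA
  set Z' := center G ⊓ N with hZ'
  have hZA : Z' ≤ A := inf_le_inf_right N (center_le_centralizer_singleton y)
  have hcomm : ∀ a ∈ A, ∀ b ∈ A, a * b = b * a := fun a ha b hb => h.commute hy ha.1 ha.2 hb.1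
  set κ := Z'.relIndex A with hκ
  have hcard : Nat.card Z' * κ = Nat.card A := by
    have := relIndex_mul_relIndex ⊥ Z' A bot_le hZA
    rwa [relIndex_bot_left, relIndex_bot_left] at this
  have hκ0 : κ ≠ 0 := by
    intro h0
    rw [h0, mul_zero] at hcard
    exact Nat.card_pos.ne' hcard.symm
  have key : ∀ p : ℕ, p.Prime → (∃ w ∈ A, w ∉ center G ∧ ∃ k : ℕ, w ^ (p ^ k) = 1) →
      m ∣ ordProj[p] (Nat.card Z') * (ordProj[p] κ - 1) ∧ 1 < ordProj[p] κ := by
    rintro p hp ⟨w₀, hw₀A, hw₀Z, hw₀p⟩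
    have : Fact p.Prime := ⟨hp⟩
    set U : Set G := {x | x ∈ A ∧ ∃ k : ℕ, x ^ (p ^ k) = 1} with hU
    set V : Set G := {x | x ∈ Z' ∧ ∃ k : ℕ, x ^ (p ^ k) = 1} with hV
    have hVU : V ⊆ U := fun x hx => ⟨hZA hx.1, hx.2⟩
    have hWc : ∀ w ∈ U \ V, w ∉ center G := fun w hw hc => hw.2 ⟨⟨hc, hw.1.1.2⟩, hw.1.2⟩
    have hinv : ∀ g ∈ (⊤ : Subgroup G), ∀ w ∈ U \ V, g * w * g⁻¹ ∈ U \ V := by
      intro g _ w hw
      refine ⟨⟨⟨hCn.conj_mem w hw.1.1.1 g, hNn.conj_mem w hw.1.1.2 g⟩, pow_conj g hw.1.2⟩, ?_⟩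
      intro hb
      exact not_mem_center_conj (hWc w hw) g hb.1.1
    have hdvd : m ∣ Nat.card ↥(U \ V) :=
      dvd_card_of_relIndex_centralizer ⊤ (U \ V) hinv m (fun w hw => by
        rw [relIndex_top_right]; exact h.two.index_eq hw.1.1.2 (hWc w hw))
    have hUc : U.ncard = ordProj[p] (Nat.card A) := by
      rw [← Nat.card_coe_set_eq]
      exact card_pElements p A (fun x hx _ y hy => hcomm x hx y hy)
    have hVc : V.ncard = ordProj[p] (Nat.card Z') := by
      rw [← Nat.card_coe_set_eq]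
      exact card_pElements p Z' (fun x hx _ y _ => ((mem_center_iff.1 hx.1) y).symm)
    have hW : (U \ V).ncard = ordProj[p] (Nat.card Z') * (ordProj[p] κ - 1) := by
      rw [Set.ncard_sdiff hVU (Set.toFinite _), hUc, hVc, ← hcard,
        Nat.ordProj_mul _ Nat.card_pos.ne' hκ0, Nat.mul_sub, mul_one]
    rw [Nat.card_coe_set_eq, hW] at hdvd
    refine ⟨hdvd, ?_⟩
    have hne : (U \ V).Nonempty := ⟨w₀, ⟨hw₀A, hw₀p⟩, fun hv => hw₀Z hv.1.1⟩
    have hpos : 0 < (U \ V).ncard := (Set.ncard_pos (Set.toFinite _)).2 hne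
    rw [hW] at hpos
    have := Nat.pos_of_mul_pos_left hpos
    omega
  obtain ⟨t, htC, htZ, htr⟩ := h.exists_r hy
  obtain ⟨hs1, hs2⟩ := key s hs ⟨y, ⟨mem_cent_singleton.2 rfl, hy.1⟩, hy.2.1, hys⟩
  obtain ⟨hr1, hr2⟩ := key r hr ⟨t, ⟨htC, h.rmem t htr⟩, htZ, htr⟩
  have ha : ordCompl[s] m ∣ ordProj[s] κ - 1 := by
    have hcop : (ordCompl[s] m).Coprime (ordProj[s] (Nat.card Z')) :=
      (Nat.Coprime.pow_left _ (Nat.coprime_ordCompl hs hm0)).symm
    exact hcop.dvd_of_dvd_mul_left ((Nat.ordCompl_dvd m s).trans hs1)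
  have hb : ordProj[s] m ∣ ordProj[r] κ - 1 := by
    have hcop : (ordProj[s] m).Coprime (ordProj[r] (Nat.card Z')) :=
      Nat.Coprime.pow _ _ ((Nat.coprime_primes hs hr).2 hsr)
    exact hcop.dvd_of_dvd_mul_left ((Nat.ordProj_dvd m s).trans hr1)
  -- `κ ≤ m`
  have hκm : κ ≤ m := by
    have hnle : ¬ (R : Subgroup G) ≤ C := by
      intro hle
      apply R.not_dvd_index
      have h1 : C.index = m := h.two.index_eq hy.1 hy.2.1
      exact (h1 ▸ hrm).trans (index_dvd_of_le hle)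
    obtain ⟨b, hbR, hbC⟩ := SetLike.not_le_iff_exists.1 hnle
    have hbr : ∃ k : ℕ, b ^ (r ^ k) = 1 := by
      obtain ⟨k, hk⟩ := R.2 ⟨b, hbR⟩
      exact ⟨k, by simpa using congrArg Subtype.val hk⟩
    have hbN : b ∈ N := h.rmem b hbr
    have hbZ : b ∉ center G := fun hb => hbC (center_le_centralizer_singleton y hb)
    have hle : centralizer ({b} : Set G) ⊓ A ≤ Z' := by
      rintro a ⟨hab, haA⟩
      refine ⟨?_, haA.2⟩
      by_contra haZ
      have h1 : centralizer ({a} : Set G) = C := h.centralizer_eq hy haA.1 haA.2 haZ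
      apply hbC
      rw [← h1, mem_cent_singleton]
      exact (mem_cent_singleton.1 hab).symm
    have h1 : κ ∣ (centralizer ({b} : Set G)).relIndex A := by
      rw [← inf_relIndex_right]
      exact relIndex_dvd_of_le_left A hle
    have h2 : (centralizer ({b} : Set G)).relIndex A ≠ 0 := by
      rw [relIndex]; exact index_ne_zero_of_finite
    have h3 : (centralizer ({b} : Set G)).relIndex A ≤ (centralizer ({b} : Set G)).relIndex ⊤ :=
      relIndex_le_of_le_right le_top (by rw [relIndex_top_right]; exact index_ne_zero_of_finite)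
    rw [relIndex_top_right, h.two.index_eq hbN hbZ] at h3
    exact (Nat.le_of_dvd (Nat.pos_of_ne_zero h2) h1).trans h3
  have hmul : ordProj[s] κ * ordProj[r] κ ∣ κ :=
    Nat.Coprime.mul_dvd_of_dvd_of_dvd (Nat.Coprime.pow _ _ ((Nat.coprime_primes hs hr).2 hsr))
      (Nat.ordProj_dvd κ s) (Nat.ordProj_dvd κ r)
  have h1 : ordCompl[s] m ≤ ordProj[s] κ - 1 := Nat.le_of_dvd (by omega) ha
  have h2 : ordProj[s] m ≤ ordProj[r] κ - 1 := Nat.le_of_dvd (by omega) hb
  have h3 : ordProj[s] κ * ordProj[r] κ ≤ κ := Nat.le_of_dvd (Nat.pos_of_ne_zero hκ0) hmul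
  have h4 : m ≤ (ordProj[r] κ - 1) * (ordProj[s] κ - 1) := by
    rw [← Nat.ordProj_mul_ordCompl_eq_self m s]; exact Nat.mul_le_mul h2 h1
  have h5 : (ordProj[r] κ - 1) * (ordProj[s] κ - 1) < ordProj[s] κ * ordProj[r] κ := by
    rw [mul_comm (ordProj[s] κ)]
    exact Nat.mul_lt_mul'' (by omega) (by omega)
  omega

theorem normal_of_map_conj_eq (C : Subgroup G)
    (h : ∀ g : G, C.map (MulAut.conj g).toMonoidHom = C) : C.Normal := by
  constructor
  intro n hn g
  rw [← h g]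
  exact ⟨n, hn, rfl⟩

/-- Step 6: a non-central normal `s`-subgroup of `G` inside `N` yields a normal mixed centralizer -/
theorem RCtx.exists_normal_centralizer [Finite G] [Fact r.Prime] (h : RCtx r N m) {s : ℕ}
    [Fact s.Prime] (hsr : s ≠ r) (Y : Subgroup G) (hYn : Y.Normal) (hYs : IsPGroup s Y)
    (hYN : Y ≤ N) (hYZ : ¬ Y ≤ center G) :
    ∃ y : G, Good r N y ∧ (∃ k : ℕ, y ^ (s ^ k) = 1) ∧ (centralizer ({y} : Set G)).Normal := by
  have hr : r.Prime := Fact.out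
  have hs : s.Prime := Fact.out
  have hNn := h.normal
  have hel : ∀ v ∈ Y, ∃ k : ℕ, v ^ (s ^ k) = 1 := by
    intro v hv
    obtain ⟨k, hk⟩ := hYs ⟨v, hv⟩
    exact ⟨k, by simpa using congrArg Subtype.val hk⟩
  obtain ⟨y, hyY, hyZ, hyn⟩ := exists_second_center_rel Y Y hYs le_rfl
    (fun g _ k hk => hYn.conj_mem k hk g) hYZ
  have hy : Good r N y := ⟨hYN hyY, hyZ, not_dvd_orderOf_of_pow hs hr hsr (hel y hyY)⟩
  obtain ⟨t, htC, htZ, htr⟩ := h.exists_r hy
  have htN : t ∈ N := h.rmem t htr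
  have hCt : centralizer ({t} : Set G) = centralizer ({y} : Set G) := h.centralizer_eq hy htC htN htZ
  have hYC : Y ≤ centralizer ({y} : Set G) := by
    intro v hv
    -- `v t v⁻¹ ∈ C(y)`
    have h1 : v * t * v⁻¹ ∈ centralizer ({y} : Set G) := by
      rw [mem_cent_singleton]
      obtain ⟨ζ, hζc, e⟩ : ∃ ζ ∈ center G, v⁻¹ * y * v = ζ * y :=
        ⟨_, hyn v⁻¹ (inv_mem hv), by group⟩
      have hwz : t * y = y * t := mem_cent_singleton.1 htC
      have hcomm : t * (ζ * y) = (ζ * y) * t := by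
        calc t * (ζ * y) = (t * ζ) * y := by group
          _ = (ζ * t) * y := by rw [(mem_center_iff.1 hζc) t]
          _ = ζ * (t * y) := by group
          _ = ζ * (y * t) := by rw [hwz]
          _ = (ζ * y) * t := by group
      calc (v * t * v⁻¹) * y = v * (t * (v⁻¹ * y * v)) * v⁻¹ := by group
        _ = v * ((v⁻¹ * y * v) * t) * v⁻¹ := by rw [e, hcomm]
        _ = y * (v * t * v⁻¹) := by group
    have h2 : v * t * v⁻¹ ∈ N := hNn.conj_mem t htN v
    have h3 : Commute (v * t * v⁻¹) t⁻¹ :=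
      (show Commute (v * t * v⁻¹) t from h.commute hy h1 h2 htC).inv_right
    have h4 : ∃ k : ℕ, (v * t * v⁻¹ * t⁻¹) ^ (r ^ k) = 1 :=
      pow_mul_of_commute h3 (pow_conj v htr) (pow_inv' htr)
    have h5 : v * t * v⁻¹ * t⁻¹ ∈ Y := by
      have : v * t * v⁻¹ * t⁻¹ = v * (t * v⁻¹ * t⁻¹) := by group
      rw [this]
      exact Y.mul_mem hv (hYn.conj_mem _ (Y.inv_mem hv) t)
    have h6 : v * t * v⁻¹ * t⁻¹ = 1 := eq_one_of_pow_pow hs hr hsr (hel _ h5) h4
    rw [← hCt, mem_cent_singleton]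
    calc v * t = (v * t * v⁻¹ * t⁻¹) * (t * v) := by group
      _ = t * v := by rw [h6, one_mul]
  refine ⟨y, hy, hel y hyY, normal_of_map_conj_eq _ (fun g => ?_)⟩
  rw [← centralizer_conj]
  have h1 : g * y * g⁻¹ ∈ Y := hYn.conj_mem y hyY g
  exact h.centralizer_eq hy (hYC h1) (hYN h1) (not_mem_center_conj hyZ g)

end Cfsg.Agent.Lib.Helper69
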