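import Mathlib
import Cfsg.Agent.Lib.Helper69.RelIto4

/-!
# Normal subgroups with two `G`-class sizes, part 5: all `r'`-elements of `N` are central
-/

set_option autoImplicit false

namespace Cfsg.Agent.Lib.Helper69

open Subgroup

variable {G : Type*} [Group G] {r : ℕ} {N : Subgroup G} {m : ℕ}

/-- the `p`-elements of a commutative subgroup -/
def pElts (p : ℕ) (A : Subgroup G) (hA : ∀ a ∈ A, ∀ b ∈ A, a * b = b * a) : Subgroup G where
  carrier := {x | x ∈ A ∧ ∃ k : ℕ, x ^ (p ^ k) = 1}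
  mul_mem' := fun ha hb => ⟨A.mul_mem ha.1 hb.1, pow_mul_of_commute (hA _ ha.1 _ hb.1) ha.2 hb.2⟩
  one_mem' := ⟨A.one_mem, 0, by simp⟩
  inv_mem' := fun ha => ⟨A.inv_mem ha.1, pow_inv' ha.2⟩

theorem isPGroup_pElts (p : ℕ) (A : Subgroup G) (hA : ∀ a ∈ A, ∀ b ∈ A, a * b = b * a) :
    IsPGroup p (pElts p A hA) := by
  rintro ⟨x, hx⟩
  obtain ⟨k, hk⟩ := hx.2
  exact ⟨k, Subtype.ext (by simpa using hk)⟩

theorem le_pCore_of_normal_of_normal {p : ℕ} (X B : Subgroup G) [X.Normal] (hBX : B ≤ X)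
    (hB : IsPGroup p B) (hn : ∀ x ∈ X, ∀ b ∈ B, x * b * x⁻¹ ∈ B) : B ≤ Cfsg.pCore p G := by
  have h1 : (B.subgroupOf X).Normal := ⟨fun b hb x => by
    rw [mem_subgroupOf] at hb ⊢
    exact hn x x.2 b hb⟩
  have h2 : IsPGroup p (B.subgroupOf X) := hB.comap_subtype
  have h3 := Cfsg.Agent.Lib.Lead.le_pCore h1 h2
  have h4 := Cfsg.Agent.Lib.Lead.pCore_normal_subgroup_le (p := p) X
  intro b hb
  exact h4 ⟨⟨b, hBX hb⟩, h3 (mem_subgroupOf.2 hb), rfl⟩

theorem RCtx.false_of_good [Finite G] [Fact r.Prime] (h : RCtx r N m) {s : ℕ} [Fact s.Prime]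
    (hsr : s ≠ r) (R : Sylow r G) (hR : ¬ (R : Subgroup G) ≤ center G) (hrm : r ∣ m) {y : G}
    (hy : Good r N y) (hys : ∃ k : ℕ, y ^ (s ^ k) = 1) : False := by
  have hr : r.Prime := Fact.out
  have hs : s.Prime := Fact.out
  have hNn := h.normal
  obtain ⟨u, huR, huZ, hun⟩ := exists_second_center_rel (R : Subgroup G) (R : Subgroup G) R.2 le_rfl
    (fun g hg k hk => (R : Subgroup G).mul_mem ((R : Subgroup G).mul_mem hg hk)
      ((R : Subgroup G).inv_mem hg)) hR
  have hur : ∃ k : ℕ, u ^ (r ^ k) = 1 := by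
    obtain ⟨k, hk⟩ := R.2 ⟨u, huR⟩
    exact ⟨k, by simpa using congrArg Subtype.val hk⟩
  set C := centralizer ({y} : Set G) with hC
  have hnorm : ∀ g : G, C.map (MulAut.conj (g * u * g⁻¹)).toMonoidHom = C :=
    fun g => h.conj_normalizes hy R hun g
  by_cases hall : ∀ g : G, g * u * g⁻¹ ∈ C
  · -- `C` is normal
    have h1 : ∀ g : G, centralizer ({g * u * g⁻¹} : Set G) = C := fun g =>
      h.centralizer_eq hy (hall g) (h.rmem _ (pow_conj g hur)) (not_mem_center_conj huZ g)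
    have h2 : centralizer ({u} : Set G) = C := by
      have := h1 1
      simpa using this
    apply h.false_of_normal hsr R hrm hy hys
    apply normal_of_map_conj_eq
    intro g
    rw [← hC, ← h2, ← centralizer_conj, h1 g, h2]
  · push Not at hall
    obtain ⟨g, hg⟩ := hall
    set u' := g * u * g⁻¹ with hu'
    have hu'r : ∃ k : ℕ, u' ^ (r ^ k) = 1 := pow_conj g hur
    set X := normalClosure ({u} : Set G) with hX
    have hXnorm : X ≤ normalizer (C : Set G) := by
      rw [hX, normalClosure, closure_le]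
      intro x hx
      obtain ⟨a, ha, hax⟩ := Group.mem_conjugatesOfSet_iff.1 hx
      rw [Set.mem_singleton_iff] at ha
      subst ha
      obtain ⟨c, rfl⟩ := isConj_iff.1 hax
      exact mem_normalizer_iff_map_conj_eq.2 (hnorm c)
    have hXC : ∀ x ∈ X, ∀ c ∈ C, x * c * x⁻¹ ∈ C := by
      intro x hx c hc
      have := mem_normalizer_iff_map_conj_eq.1 (hXnorm hx)
      rw [← this]
      exact ⟨c, hc, rfl⟩
    have hu'X : u' ∈ X := by
      have h1 : u ∈ X := subset_normalClosure (Set.mem_singleton u)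
      exact (normalClosure_normal (s := ({u} : Set G))).conj_mem u h1 g
    have hyC : y ∈ C := mem_cent_singleton.2 rfl
    -- the commutator `y₁`
    set w := u' * y * u'⁻¹ with hw
    have hwC : w ∈ C := hXC u' hu'X y hyC
    have hwN : w ∈ N := hNn.conj_mem y hy.1 u'
    set y₁ := w * y⁻¹ with hy₁
    have hy₁C : y₁ ∈ C := C.mul_mem hwC (C.inv_mem hyC)
    have hy₁N : y₁ ∈ N := N.mul_mem hwN (N.inv_mem hy.1)
    have hy₁X : y₁ ∈ X := by
      have e : y₁ = u' * (y * u'⁻¹ * y⁻¹) := by rw [hy₁, hw]; group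
      rw [e]
      exact X.mul_mem hu'X ((normalClosure_normal (s := ({u} : Set G))).conj_mem _ (X.inv_mem hu'X) y)
    have hy₁s : ∃ k : ℕ, y₁ ^ (s ^ k) = 1 :=
      pow_mul_of_commute (show Commute w y from mem_cent_singleton.1 hwC).inv_right
        (pow_conj u' hys) (pow_inv' hys)
    have hy₁Z : y₁ ∉ center G := by
      intro hc
      have he : u' * y * u'⁻¹ = y₁ * y := by rw [hy₁, hw]; group
      obtain ⟨k, hk⟩ := hu'r
      have h1 := conj_pow_central hc he (r ^ k)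
      rw [hk] at h1
      have h2 : y₁ ^ (r ^ k) = 1 := by
        have : y = y₁ ^ (r ^ k) * y := by simpa using h1
        exact (mul_eq_right.1 this.symm)
      have h3 : y₁ = 1 := eq_one_of_pow_pow hs hr hsr hy₁s ⟨k, h2⟩
      apply hg
      rw [hC, mem_cent_singleton]
      rw [h3, one_mul] at he
      calc u' * y = (u' * y * u'⁻¹) * u' := by group
        _ = y * u' := by rw [he]
    -- the normal `s`-subgroup
    have hcomm : ∀ a ∈ X ⊓ (C ⊓ N), ∀ b ∈ X ⊓ (C ⊓ N), a * b = b * a :=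
      fun a ha b hb => h.commute hy ha.2.1 ha.2.2 hb.2.1
    set B := pElts s (X ⊓ (C ⊓ N)) hcomm with hB
    have hBcore : B ≤ Cfsg.pCore s G := by
      apply le_pCore_of_normal_of_normal X B (fun b hb => hb.1.1) (isPGroup_pElts _ _ _)
      intro x hx b hb
      exact ⟨⟨X.mul_mem (X.mul_mem hx hb.1.1) (X.inv_mem hx), hXC x hx b hb.1.2.1,
        hNn.conj_mem b hb.1.2.2 x⟩, pow_conj x hb.2⟩
    have hy₁B : y₁ ∈ B := ⟨⟨hy₁X, hy₁C, hy₁N⟩, hy₁s⟩
    have hcn : (Cfsg.pCore s G).Normal := Cfsg.Agent.Lib.Lead.pCore_normal' s G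
    obtain ⟨y', hy', hy's, hy'n⟩ := h.exists_normal_centralizer hsr (Cfsg.pCore s G ⊓ N)
      inferInstance ((Cfsg.Agent.Lib.Lead.pCore_isPGroup s G).to_le inf_le_left) inf_le_right
      (fun hle => hy₁Z (hle ⟨hBcore hy₁B, hy₁N⟩))
    exact h.false_of_normal hsr R hrm hy' hy's hy'n

/-- in case `r ∣ m`, all `r'`-elements of `N` are central in `G` -/
theorem RCtx.mem_center [Finite G] [Fact r.Prime] (h : RCtx r N m) (R : Sylow r G)
    (hR : ¬ (R : Subgroup G) ≤ center G) (hrm : r ∣ m) {x : G} (hxN : x ∈ N)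
    (hx : ¬ r ∣ orderOf x) : x ∈ center G := by
  have hr : r.Prime := Fact.out
  by_contra hxZ
  obtain ⟨s, k, hs, hk, hj⟩ := exists_prime_part_not_mem (center G) (orderOf x) x le_rfl hxZ
  have : Fact s.Prime := ⟨hs⟩
  have hrk : ¬ r ∣ orderOf (x ^ k) := fun hd => hx (hd.trans (orderOf_pow_dvd k))
  have hsr : s ≠ r := by
    rintro rfl
    apply hk
    have h1 : orderOf (x ^ k) = 1 := by
      obtain ⟨j, hj⟩ := hj
      obtain ⟨i, -, hi⟩ := (Nat.dvd_prime_pow hs).1 (orderOf_dvd_of_pow_eq_one hj)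
      rcases Nat.eq_zero_or_pos i with rfl | hi0
      · simpa using hi
      · exact absurd (hi ▸ dvd_pow_self s hi0.ne') hrk
    rw [orderOf_eq_one_iff.1 h1]
    exact (center G).one_mem
  exact h.false_of_good hsr R hR hrm ⟨N.pow_mem hxN k, hk, hrk⟩ hj

end Cfsg.Agent.Lib.Helper69
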