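import Mathlib
import Cfsg.Agent.Lib.Helper69.CoprimeIndex

/-!
# Representations spanned by one orbit
-/

set_option autoImplicit false

namespace Cfsg.Agent.Lib.Helper69

open MulAction

theorem sum_smul_eq {G X M : Type*} [Group G] [Fintype G] [MulAction G X] [AddCommMonoid M] (b : X)
    (hfin : (orbit G b).Finite) (F : X → M) :
    ∑ g : G, F (g • b) = Nat.card (stabilizer G b) • ∑ u ∈ hfin.toFinset, F u := by
  classical
  rw [← Finset.sum_fiberwise_of_maps_to (s := Finset.univ) (t := hfin.toFinset)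
    (g := fun g : G => g • b) (fun g _ => by simp [mem_orbit]), Finset.smul_sum]
  apply Finset.sum_congr rfl
  intro u hu
  obtain ⟨g0, rfl⟩ := hfin.mem_toFinset.1 hu
  rw [Finset.sum_congr rfl (g := fun _ => F (g0 • b))
    (by intro g hg; rw [(Finset.mem_filter.1 hg).2]), Finset.sum_const]
  congr 1
  rw [← Fintype.card_subtype, ← Nat.card_eq_fintype_card]
  apply Nat.card_congr
  exact
    { toFun := fun g => ⟨g0⁻¹ * g.1, by
        rw [mem_stabilizer_iff, mul_smul, g.2, inv_smul_smul]⟩
      invFun := fun s => ⟨g0 * s.1, by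
        show (g0 * s.1) • b = g0 • b
        rw [mul_smul, mem_stabilizer_iff.1 s.2]⟩
      left_inv := fun g => by simp
      right_inv := fun s => by simp }

variable {k V H : Type*} [Field k] [AddCommGroup V] [Module k V] [Group H]

/-- stabilizer of a vector -/
def stab (ρ : Representation k H V) (v : V) : Subgroup H where
  carrier := {h | ρ h v = v}
  mul_mem' := by
    intro a b ha hb
    simp only [Set.mem_ofPred_eq] at *
    rw [map_mul, Module.End.mul_apply, hb, ha]
  one_mem' := by simp
  inv_mem' := by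
    intro a ha
    simp only [Set.mem_ofPred_eq] at *
    conv_lhs => rw [← ha]
    rw [← Module.End.mul_apply, ← map_mul]
    simp

theorem mem_stab (ρ : Representation k H V) (v : V) (h : H) : h ∈ stab ρ v ↔ ρ h v = v := Iff.rfl

theorem card_orbit_eq_index (ρ : Representation k H V) (v : V) :
    Nat.card {u : V | ∃ h : H, ρ h v = u} = (stab ρ v).index := by
  let _ : MulAction H V := MulAction.compHom V (ρ : H →* Module.End k V)
  have h1 : stab ρ v = MulAction.stabilizer H v := by ext; rfl
  rw [h1, MulAction.index_stabilizer, ← Nat.card_coe_set_eq]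
  rfl

/-- If `K ≤ H` is transitive on the `H`-orbit of `a`, this orbit spans `V` and `|K|` is invertible,
then the `K`-invariants are `H`-invariant and form a space spanned by one vector. -/
theorem invariant_of_transitive [Finite H] (ρ : Representation k H V) (a : V)
    (hspan : Submodule.span k {u : V | ∃ h : H, ρ h a = u} = ⊤) (K : Subgroup H)
    (hK : (Nat.card K : k) ≠ 0) (htrans : ∀ h : H, ∃ g ∈ K, ρ g a = ρ h a) :
    ∃ σ : V, (∀ h : H, ρ h σ = σ) ∧ ∀ v : V, (∀ g ∈ K, ρ g v = v) → ∃ c : k, v = c • σ := by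
  classical
  let _ : MulAction H V := MulAction.compHom V (ρ : H →* Module.End k V)
  have hsmul : ∀ (h : H) (v : V), h • v = ρ h v := fun _ _ => rfl
  have hsmulK : ∀ (g : K) (v : V), g • v = ρ g v := fun _ _ => rfl
  have := Fintype.ofFinite H
  have := Fintype.ofFinite K
  set O : Set V := orbit H a with hO
  have hOfin : O.Finite := Set.finite_range _
  set σ : V := ∑ u ∈ hOfin.toFinset, u with hσ
  have hmemO : ∀ u, u ∈ O ↔ ∃ h : H, ρ h a = u := fun u => Iff.rfl
  have hσinv : ∀ h : H, ρ h σ = σ := by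
    intro h
    rw [hσ, map_sum]
    apply Finset.sum_bijective (fun u => ρ h u)
    · exact (MulAction.toPerm h : Equiv.Perm V).bijective
    · intro u
      simp only [Set.Finite.mem_toFinset, hmemO]
      constructor
      · rintro ⟨g, rfl⟩
        exact ⟨h * g, by rw [map_mul, Module.End.mul_apply]⟩
      · rintro ⟨g, hg⟩
        refine ⟨h⁻¹ * g, ?_⟩
        rw [map_mul, Module.End.mul_apply, hg, ← Module.End.mul_apply, ← map_mul]
        simp
    · intro u _; rfl
  refine ⟨σ, hσinv, ?_⟩
  -- the averaging map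
  let T : V →ₗ[k] V := ∑ g : K, ρ g
  have hT : ∀ v, T v = ∑ g : K, ρ g v := fun v => by simp [T, LinearMap.sum_apply]
  have hTO : ∀ w ∈ O, ∃ c : k, T w = c • σ := by
    intro w hw
    obtain ⟨h0, rfl⟩ := (hmemO w).1 hw
    obtain ⟨g0, hg0K, hg0⟩ := htrans h0
    have horb : orbit K (ρ h0 a) = O := by
      ext u
      rw [hmemO]
      constructor
      · rintro ⟨g, rfl⟩
        exact ⟨g * h0, by rw [map_mul, Module.End.mul_apply]; rfl⟩
      · rintro ⟨h, rfl⟩
        obtain ⟨g, hgK, hg⟩ := htrans h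
        refine ⟨⟨g * g0⁻¹, K.mul_mem hgK (K.inv_mem hg0K)⟩, ?_⟩
        show ρ (g * g0⁻¹) (ρ h0 a) = ρ h a
        rw [← hg0, ← hg, map_mul, Module.End.mul_apply, ← Module.End.mul_apply (ρ g0⁻¹), ← map_mul]
        simp
    have hfinK : (orbit K (ρ h0 a)).Finite := Set.finite_range _
    have h1 := sum_smul_eq (G := K) (ρ h0 a) hfinK (fun u : V => u)
    refine ⟨(Nat.card (stabilizer K (ρ h0 a)) : k), ?_⟩
    rw [hT]
    have h2 : ∑ g : K, ρ g (ρ h0 a) = ∑ g : K, g • (ρ h0 a) := rfl
    rw [h2, h1, hσ, Nat.cast_smul_eq_nsmul]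
    congr 2
    ext u
    simp only [Set.Finite.mem_toFinset]
    rw [horb]
  have hTall : ∀ v : V, ∃ c : k, T v = c • σ := by
    intro v
    have hv : v ∈ Submodule.span k {u : V | ∃ h : H, ρ h a = u} := by rw [hspan]; trivial
    induction hv using Submodule.span_induction with
    | mem x hx => exact hTO x hx
    | zero => exact ⟨0, by simp⟩
    | add x y _ _ hx hy =>
      obtain ⟨c, hc⟩ := hx
      obtain ⟨d, hd⟩ := hy
      exact ⟨c + d, by rw [map_add, hc, hd, add_smul]⟩
    | smul r x _ hx =>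
      obtain ⟨c, hc⟩ := hx
      exact ⟨r * c, by rw [map_smul, hc, smul_smul]⟩
  intro v hv
  obtain ⟨c, hc⟩ := hTall v
  have h3 : T v = (Nat.card K : k) • v := by
    rw [hT]
    have : ∀ g : K, ρ g v = v := fun g => hv g g.2
    simp only [this, Finset.sum_const, Finset.card_univ, Nat.card_eq_fintype_card,
      Nat.cast_smul_eq_nsmul]
  refine ⟨(Nat.card K : k)⁻¹ * c, ?_⟩
  rw [← smul_smul, ← hc, h3, smul_smul, inv_mul_cancel₀ hK, one_smul]

end Cfsg.Agent.Lib.Helper69
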